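import Cfsg.Agent.H72.CL
import Cfsg.Agent.S0572

/-! A replacement argument, and a minimal centrally large subgroup normalized by
`J(P)` and by all minimal centrally large subgroups. -/

set_option autoImplicit false

namespace Cfsg.Agent.H72

open Subgroup
open scoped Pointwise commutatorElement

variable {P : Type*} [Group P]

local notation "C(" X ")" => centralizer ((X : Subgroup P) : Set P)

/-- Itô: if the product of the abelian subgroups `A` and `B` is a subgroup, the commutators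
`[a, b]` commute with each other. -/
theorem ito_commute {A B : Subgroup P} (hA : A ≤ C(A)) (hB : B ≤ C(B))
    (h : ∀ x ∈ A ⊔ B, ∃ a ∈ A, ∃ b ∈ B, a * b = x) {a a₁ b b₁ : P} (ha : a ∈ A) (ha₁ : a₁ ∈ A)
    (hb : b ∈ B) (hb₁ : b₁ ∈ B) : Commute ⁅a₁, b₁⁆ ⁅a, b⁆ := by
  have := le_centralizer_iff_isMulCommutative.1 hA
  have := le_centralizer_iff_isMulCommutative.1 hB
  have := S0572.key (A.subgroupOf (A ⊔ B)) (B.subgroupOf (A ⊔ B)) (fun g => by
      obtain ⟨a, ha, b, hb, e⟩ := h g g.2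
      exact ⟨⟨a, mem_sup_left ha⟩, ha, ⟨b, mem_sup_right hb⟩, hb, Subtype.ext e.symm⟩)
    (a := ⟨a, mem_sup_left ha⟩) (a' := ⟨a₁, mem_sup_left ha₁⟩) (b := ⟨b, mem_sup_right hb⟩)
    (b' := ⟨b₁, mem_sup_right hb₁⟩) ha ha₁ hb hb₁
  exact congrArg Subtype.val this.eq

/-- The subgroup `[x, Z]` generated by the commutators `[x, z]`. -/
def eltComm (x : P) (Z : Subgroup P) : Subgroup P := closure {y | ∃ z ∈ Z, ⁅x, z⁆ = y}

theorem mem_eltComm {x z : P} {Z : Subgroup P} (hz : z ∈ Z) : ⁅x, z⁆ ∈ eltComm x Z :=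
  subset_closure ⟨z, hz, rfl⟩

theorem eltComm_le {x : P} {Z W : Subgroup P} (h : ∀ z ∈ Z, ⁅x, z⁆ ∈ W) : eltComm x Z ≤ W :=
  (closure_le _).2 (by rintro _ ⟨z, hz, rfl⟩; exact h z hz)

theorem eltComm_abelian {x : P} {Z : Subgroup P}
    (h : ∀ z ∈ Z, ∀ w ∈ Z, Commute ⁅x, z⁆ ⁅x, w⁆) : eltComm x Z ≤ C(eltComm x Z) := by
  apply eltComm_le
  intro z hz
  rw [eltComm, centralizer_closure]
  rintro _ ⟨w, hw, rfl⟩
  exact h w hw z hz

theorem mem_centralizer_eltComm {x w : P} {Z : Subgroup P} (hZ : Z ≤ C(Z))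
    (hM : eltComm x Z ≤ C(eltComm x Z)) (hw : w ∈ Z) (h : ⁅x, w⁆ ∈ C(Z)) :
    w ∈ C(eltComm x Z) := by
  rw [eltComm, centralizer_closure]
  rintro _ ⟨a, ha, rfl⟩
  have e1 : ⁅x, w * a⁆ = ⁅x, w⁆ * (w * ⁅x, a⁆ * w⁻¹) := by
    simp only [commutatorElement_def]; group
  have e2 : ⁅x, a * w⁆ = ⁅x, a⁆ * (a * ⁅x, w⁆ * a⁻¹) := by
    simp only [commutatorElement_def]; group
  rw [h a ha, mul_inv_cancel_right, hZ hw a ha, e1, hM (mem_eltComm hw) _ (mem_eltComm ha),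
    mul_right_inj, mul_inv_eq_iff_eq_mul] at e2
  exact e2.symm

variable [Finite P]

theorem relIndex_le_of_eltComm {x : P} {Z U W : Subgroup P} (hZ : Z ≤ C(Z))
    (hM : eltComm x Z ≤ C(eltComm x Z)) (hU : U ≤ Z) (hW : ∀ u ∈ U, ⁅x, u⁆ ∈ W) :
    C(eltComm x Z).relIndex U ≤ Z.relIndex W := by
  rw [relIndex, relIndex, index_eq_card, index_eq_card]
  refine Nat.card_le_card_of_injective
    (fun q => (QuotientGroup.mk (⟨⁅x, (q.out : U)⁆, hW _ q.out.2⟩ : W) : W ⧸ Z.subgroupOf W)) ?_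
  intro q₁ q₂ h
  rw [← q₁.out_eq, ← q₂.out_eq]
  set u := q₁.out
  set v := q₂.out
  have h1 : ⁅x, (u : P)⁆⁻¹ * ⁅x, (v : P)⁆ ∈ Z :=
    mem_subgroupOf.1 (QuotientGroup.eq.1 h)
  apply QuotientGroup.eq.2
  rw [mem_subgroupOf]
  have hu : (u : P) ∈ Z := hU u.2
  have hw : (u : P)⁻¹ * v ∈ Z := Z.mul_mem (Z.inv_mem hu) (hU v.2)
  apply mem_centralizer_eltComm hZ hM hw
  have e : ⁅x, (u : P)⁻¹ * v⁆ = (u : P)⁻¹ * (⁅x, (u : P)⁆⁻¹ * ⁅x, (v : P)⁆) * u := by
    simp only [commutatorElement_def]; group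
  change ⁅x, (u : P)⁻¹ * v⁆ ∈ _
  rw [e]
  exact hZ (Z.mul_mem (Z.mul_mem (Z.inv_mem hu) h1) hu)

theorem card_replacement {x : P} {Z : Subgroup P} (hZ : Z ≤ C(Z))
    (hM : eltComm x Z ≤ C(eltComm x Z)) {S T : Subgroup P} (hST : ∀ t ∈ T, ⁅x, t⁆ ∈ S) :
    Nat.card ↥(C(eltComm x Z) ⊓ (Z ⊓ S)) * C(eltComm x Z).relIndex (Z ⊓ T) ≤
      Nat.card ↥((eltComm x Z ⊔ (Z ⊓ C(eltComm x Z))) ⊓ S) := by
  set M := eltComm x Z
  have h1 : C(M).relIndex (Z ⊓ T) ≤ Z.relIndex (M ⊓ S) :=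
    relIndex_le_of_eltComm hZ hM inf_le_left fun u hu => ⟨mem_eltComm hu.1, hST u hu.2⟩
  have h2 := H21.card_mul_card_le (M ⊓ S) (C(M) ⊓ (Z ⊓ S))
  have h3 : Nat.card ↥(M ⊓ S ⊔ C(M) ⊓ (Z ⊓ S)) ≤ Nat.card ↥((M ⊔ (Z ⊓ C(M))) ⊓ S) :=
    card_le_of_le (sup_le (inf_le_inf_right _ le_sup_left)
      fun y hy => ⟨mem_sup_right ⟨hy.2.1, hy.1⟩, hy.2.2⟩)
  have h4 : Nat.card ↥(M ⊓ S ⊓ (C(M) ⊓ (Z ⊓ S))) ≤ Nat.card ↥(Z ⊓ (M ⊓ S)) :=
    card_le_of_le fun y hy => ⟨hy.2.2.1, hy.1⟩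
  rw [← H21.card_inf_mul_relIndex Z (M ⊓ S)] at h2
  have h5 : 0 < Nat.card ↥(Z ⊓ (M ⊓ S)) := Nat.card_pos
  apply Nat.le_of_mul_le_mul_right _ h5
  calc _ ≤ Nat.card ↥(C(M) ⊓ (Z ⊓ S)) * Z.relIndex (M ⊓ S) * Nat.card ↥(Z ⊓ (M ⊓ S)) := by gcongr
    _ = _ := by ring
    _ ≤ _ := h2
    _ ≤ _ := Nat.mul_le_mul h3 h4

/-- Replacement: the new abelian subgroup sits strictly deeper in the upper central series. -/
theorem replacement_potential {n : ℕ} (hn : Subgroup.upperCentralSeries P n = ⊤) {x : P} {Z : Subgroup P}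
    (hZ : Z ≤ C(Z)) (hM : eltComm x Z ≤ C(eltComm x Z)) (hne : ¬ Z ≤ C(eltComm x Z)) :
    Nat.card Z ≤ Nat.card ↥(eltComm x Z ⊔ (Z ⊓ C(eltComm x Z))) ∧
      ∑ i ∈ Finset.range n, Nat.card ↥(Z ⊓ Subgroup.upperCentralSeries P i) <
      ∑ i ∈ Finset.range n,
        Nat.card ↥((eltComm x Z ⊔ (Z ⊓ C(eltComm x Z))) ⊓ Subgroup.upperCentralSeries P i) := by
  set M := eltComm x Z
  constructor
  · have := card_replacement hZ hM (S := ⊤) (T := ⊤) fun _ _ => trivial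
    rwa [H21.card_inf_mul_relIndex, inf_top_eq, inf_top_eq] at this
  have hs : ∀ i, ∀ t ∈ Subgroup.upperCentralSeries P (i + 1), ⁅x, t⁆ ∈ Subgroup.upperCentralSeries P i := by
    intro i t ht
    rw [← commutatorElement_inv]
    exact inv_mem (Subgroup.mem_upperCentralSeries_succ_iff.1 ht x)
  let r : ℕ → ℕ := fun i => C(M).relIndex (Z ⊓ Subgroup.upperCentralSeries P i)
  have hr : ∀ i, r i ≤ r (i + 1) := fun i =>
    relIndex_le_of_le_right (inf_le_inf_left _ (Subgroup.upperCentralSeries_mono P i.le_succ))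
      (H21.relIndex_ne_zero' _ _)
  apply Finset.sum_lt_sum
  · intro i _
    refine le_trans ?_ (card_replacement hZ hM (hs i))
    rw [← H21.card_inf_mul_relIndex C(M) (Z ⊓ Subgroup.upperCentralSeries P i)]
    exact Nat.mul_le_mul_left _ (hr i)
  · have : ∃ i ∈ Finset.range n, r i < r (i + 1) := by
      by_contra hcon
      push Not at hcon
      have h1 : ∀ i ≤ n, r i ≤ 1 := by
        intro i hi
        induction i with
        | zero => simp [r]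
        | succ i ih => exact (hcon i (Finset.mem_range.2 hi)).trans (ih (Nat.le_of_succ_le hi))
      have h2 := h1 n le_rfl
      simp only [r, hn, inf_top_eq] at h2
      exact hne (relIndex_eq_one.1 (le_antisymm h2 (Nat.pos_of_ne_zero (H21.relIndex_ne_zero' _ _))))
    obtain ⟨i, hi, hlt⟩ := this
    refine ⟨i, hi, lt_of_lt_of_le ?_ (card_replacement hZ hM (hs i))⟩
    rw [← H21.card_inf_mul_relIndex C(M) (Z ⊓ Subgroup.upperCentralSeries P i)]
    exact Nat.mul_lt_mul_of_pos_left hlt Nat.card_pos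

/-- An abelian subgroup of `Z(Q) Z(R)` of order at least `|Z(Q)|` is the centre of a minimal
centrally large subgroup. -/
theorem mcl_of_abelian_le {Q R Y : Subgroup P} (hQ : IsMinimalCentrallyLarge Q)
    (hR : IsMinimalCentrallyLarge R) (hY : Y ≤ C(Y)) (hle : Y ≤ C(Q) ⊔ C(R))
    (hc : Nat.card C(Q) ≤ Nat.card Y) : IsMinimalCentrallyLarge C(Y) ∧ C(C(Y)) = Y := by
  have hQ' := cl_cd hQ.1
  have hR' := cl_cd hR.1
  have hE : Q ⊓ R ≤ C(Y) := by
    rw [← cd_centralizer_inf hQ' hR'] at hle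
    exact le_centralizer_iff.1 hle
  have h1 := H21.card_mul_card_le Y (Q ⊓ R)
  have h2 : Nat.card ↥(Y ⊔ (Q ⊓ R)) ≤ Nat.card C(Y) := card_le_of_le (sup_le hY hE)
  have h3 : Y ⊓ (Q ⊓ R) ≤ C(Q) ⊓ (Q ⊓ R) := by
    rintro y ⟨hy, hyQ, hyR⟩
    refine ⟨?_, hyQ, hyR⟩
    obtain ⟨a, ha, b, hb, rfl⟩ := cd_mem_sup (cd_centralizer hQ') (cd_centralizer hR') (hle hy)
    have hb' : b ∈ Q := by simpa using Q.mul_mem (Q.inv_mem (cl_centralizer_le hQ.1 ha)) hyQ
    have : b ∈ C(R) ⊓ C(Q) := mcl_center_inf hR hQ ▸ (⟨hb, hb'⟩ : b ∈ C(R) ⊓ Q)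
    exact mul_mem ha this.2
  have h4 := H21.card_sup_mul_card_inf (X := Q ⊓ R) (Y := C(Q))
      ((centralizer_anti inf_le_left).trans (centralizer_le_normalizer _))
  rw [mcl_eq_sup hQ hR.1, inf_comm (Q ⊓ R)] at h4
  have h5 : Nat.card Q ≤ Nat.card C(Y) := by
    apply Nat.le_of_mul_le_mul_right _ (Nat.card_pos (α := ↥(C(Q) ⊓ (Q ⊓ R))))
    calc _ = _ := h4
      _ ≤ Nat.card ↥(Q ⊓ R) * Nat.card Y := Nat.mul_le_mul_left _ hc
      _ = _ := mul_comm _ _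
      _ ≤ _ := h1
      _ ≤ _ := Nat.mul_le_mul h2 (card_le_of_le h3)
  have h6 : IsCentralizerLarge Y := by
    apply isCentralizerLarge_of_le
    rw [← hQ', mul_comm]
    exact Nat.mul_le_mul hc h5
  have h7 : IsCentrallyLarge C(Y) :=
    isCentrallyLarge_iff.2 ⟨cd_centralizer h6, by rwa [cd_centralizer_centralizer h6]⟩
  refine ⟨?_, cd_centralizer_centralizer h6⟩
  obtain ⟨X, hX, hXY⟩ := exists_minimalCL_le h7
  have h8 : Nat.card C(Y) ≤ Nat.card X := by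
    rw [← (mcl_card_eq hQ hX).1]
    apply Nat.le_of_mul_le_mul_left _ (Nat.card_pos (α := Y))
    rw [h6, ← hQ', mul_comm]
    exact Nat.mul_le_mul_right _ hc
  rwa [← eq_of_le_of_card_ge hXY h8]

theorem exists_mcl_normalized [Group.IsNilpotent P] : ∃ Q : Subgroup P, IsMinimalCentrallyLarge Q ∧
    thompsonSubgroupA P ≤ normalizer (Q : Set P) ∧
    minimalCentrallyLargeJoin P ≤ normalizer (Q : Set P) := by
  obtain ⟨n, hn⟩ := Group.IsNilpotent.nilpotent P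
  obtain ⟨Q, hQ, hmax⟩ := Set.Finite.exists_maximalFor
    (fun Q : Subgroup P => ∑ i ∈ Finset.range n, Nat.card ↥(C(Q) ⊓ Subgroup.upperCentralSeries P i))
    {Q : Subgroup P | IsMinimalCentrallyLarge Q} (Set.toFinite _) exists_minimalCL
  have hQ' := cl_cd hQ.1
  have hZQ := cl_centralizer_le hQ.1
  have hZ : C(Q) ≤ C(C(Q)) := hZQ.trans (le_centralizer_centralizer' Q)
  have key : ∀ B : Subgroup P, B ≤ C(B) → (∀ x ∈ B ⊔ C(Q), ∃ b ∈ B, ∃ z ∈ C(Q), b * z = x) →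
      B ≤ normalizer (Q : Set P) := by
    intro B hB hprod x hx
    have hM : eltComm x C(Q) ≤ C(eltComm x C(Q)) :=
      eltComm_abelian fun z hz w hw => ito_commute hB hZ hprod hx hx hw hz
    have hR := mcl_cj hQ x
    have hMle : eltComm x C(Q) ≤ C(Q) ⊔ C(cj x Q) := by
      apply eltComm_le
      intro z hz
      rw [← cj_centralizer, commutatorElement_def]
      exact mul_mem (mem_sup_right (conj_mem_cj hz)) (mem_sup_left (inv_mem hz))
    by_cases hc : C(Q) ≤ C(eltComm x C(Q))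
    · have h1 : eltComm x C(Q) ≤ Q := by
        rw [le_centralizer_iff, cd_centralizer_centralizer hQ'] at hc
        exact hc
      have h2 : cj x C(Q) ≤ C(Q) := by
        rintro _ ⟨z, hz, rfl⟩
        have h3 : x * z * x⁻¹ ∈ C(cj x Q) ⊓ Q := by
          refine ⟨by rw [← cj_centralizer]; exact conj_mem_cj hz, ?_⟩
          simpa [commutatorElement_def] using Q.mul_mem (h1 (mem_eltComm hz)) (hZQ hz)
        rw [mcl_center_inf hR hQ] at h3
        exact h3.2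
      have := normalizer_le_normalizer_centralizer _ (mem_normalizer_of_cj_le h2)
      rwa [cd_centralizer_centralizer hQ'] at this
    · exfalso
      obtain ⟨h1, h2⟩ := replacement_potential hn hZ hM hc
      obtain ⟨h3, h4⟩ := mcl_of_abelian_le hQ hR
        (isMulCommutative_sup hM (le_centralizer_of_le hZ inf_le_left)
          (le_centralizer_iff.1 inf_le_right))
        (sup_le hMle (inf_le_left.trans le_sup_left)) h1
      have h5 := hmax h3 (by simp only [h4]; exact h2.le)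
      simp only [h4] at h5
      exact absurd h5 (not_le.2 h2)
  refine ⟨Q, hQ, sSup_le fun A hA => key A (maxAb_le hA) fun x hx => ?_, sSup_le fun R hR => ?_⟩
  · rw [sup_comm] at hx
    obtain ⟨z, hz, a, ha, e⟩ := cl_maxAb_mem hQ.1 hA (cl_center_sup_maxAb_le hQ.1 hA (inv_mem hx))
    exact ⟨a⁻¹, inv_mem ha, z⁻¹, inv_mem hz, by rw [← mul_inv_rev, e, inv_inv]⟩
  · rw [← mcl_eq_sup hR hQ.1]
    refine sup_le (inf_le_right.trans le_normalizer) (key _ ?_ fun x hx => ?_)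
    · exact (cl_centralizer_le hR.1).trans (le_centralizer_centralizer' R)
    · exact cd_mem_sup (cd_centralizer (cl_cd hR.1)) (cd_centralizer hQ') hx

end Cfsg.Agent.H72
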