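import Cfsg.Agent.H62.Unitri
import Cfsg.Agent.H51.ElemRep
import Cfsg.Agent.H23.Basic
import Mathlib.Combinatorics.SimpleGraph.Extremal.Turan
import Mathlib.GroupTheory.Frattini
import Mathlib.GroupTheory.Schreier

/-!
Patterson's bound: a `p`-subgroup of `GL_n(p)` is generated by at most `n ^ 2 / 4` elements.
The leading positions of its elements (for a generic weight) form a partial order; one generator per
edge of the Hasse diagram suffices, and the Hasse diagram has no triangle.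
Also: for odd `p`, a `p`-group whose elements of order `p` are central, `p ^ k` of them, is
generated by `k` elements.
-/

set_option autoImplicit false

namespace Cfsg.Agent.H72.Pat

section Lead

variable {n : ℕ} {F : Type*} [Field F]

/-- The weight of the matrix position `(a, b)`. -/
def wt (a b : Fin n) : ℤ := 2 ^ (b : ℕ) - 2 ^ (a : ℕ)

theorem wt_add (a b c : Fin n) : wt a b + wt b c = wt a c := by
  unfold wt; ring

theorem wt_pos {a b : Fin n} : 0 < wt a b ↔ a < b := by
  unfold wt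
  rw [sub_pos, pow_lt_pow_iff_right₀ (by norm_num : (1 : ℤ) < 2)]
  rfl

theorem wt_lt (a b : Fin n) : wt a b < 2 ^ n := by
  unfold wt
  have h1 : (2 : ℤ) ^ (b : ℕ) < 2 ^ n := pow_lt_pow_right₀ (by norm_num) b.2
  have h2 : (0 : ℤ) < 2 ^ (a : ℕ) := by positivity
  omega

theorem pow_aux {a b c d : ℕ} (hab : a < b) (hac : a < c) (hcd : c < d)
    (h : (2 : ℤ) ^ b - 2 ^ a = 2 ^ d - 2 ^ c) : False := by
  obtain ⟨b, rfl⟩ := Nat.exists_eq_add_of_lt hab
  obtain ⟨c, rfl⟩ := Nat.exists_eq_add_of_lt hac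
  obtain ⟨d, rfl⟩ := Nat.exists_eq_add_of_lt hcd
  have h0 : (2 : ℤ) ^ a ≠ 0 := by positivity
  have : (2 : ℤ) ^ a * (2 * 2 ^ b - 1) = 2 ^ a * (2 * (2 * 2 ^ c * 2 ^ d) - 2 * 2 ^ c) := by
    linear_combination h
  have := mul_left_cancel₀ h0 this
  omega

theorem wt_inj {a b c d : Fin n} (h : 0 < wt a b) (e : wt a b = wt c d) : a = c ∧ b = d := by
  have hab : a < b := wt_pos.1 h
  have hcd : c < d := wt_pos.1 (e ▸ h)
  have hac : a = c := by
    rcases lt_trichotomy a c with h1 | h1 | h1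
    · exact (pow_aux hab h1 hcd e).elim
    · exact h1
    · exact (pow_aux hcd h1 hab e.symm).elim
  subst hac
  refine ⟨rfl, Fin.ext ?_⟩
  unfold wt at e
  exact pow_right_injective₀ (by norm_num : (0 : ℤ) < 2) (by norm_num) (by simpa using e)

/-- All entries of weight below `t` vanish. -/
def Sp (t : ℤ) (M : Matrix (Fin n) (Fin n) F) : Prop := ∀ a b, wt a b < t → M a b = 0

theorem Sp.mono {s t : ℤ} {M : Matrix (Fin n) (Fin n) F} (h : Sp t M) (hs : s ≤ t) : Sp s M :=
  fun a b hab => h a b (lt_of_lt_of_le hab hs)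

theorem Sp.add {t : ℤ} {M N : Matrix (Fin n) (Fin n) F} (h : Sp t M) (h' : Sp t N) :
    Sp t (M + N) := fun a b hab => by simp [h a b hab, h' a b hab]

theorem Sp.sub {t : ℤ} {M N : Matrix (Fin n) (Fin n) F} (h : Sp t M) (h' : Sp t N) :
    Sp t (M - N) := fun a b hab => by simp [h a b hab, h' a b hab]

theorem Sp.mul {s t : ℤ} {M N : Matrix (Fin n) (Fin n) F} (h : Sp s M) (h' : Sp t N) :
    Sp (s + t) (M * N) := fun a c hac => by
  rw [Matrix.mul_apply]
  refine Finset.sum_eq_zero fun b _ => ?_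
  have := wt_add a b c
  by_cases h1 : wt a b < s
  · rw [h a b h1, zero_mul]
  · rw [h' b c (by omega), mul_zero]

theorem Sp.mul_apply {M N : Matrix (Fin n) (Fin n) F} {i j k : Fin n} (hij : i < j)
    (h : Sp (wt i j) M) (h' : Sp (wt j k) N) : (M * N) i k = M i j * N j k := by
  rw [Matrix.mul_apply]
  refine Finset.sum_eq_single j (fun b _ hb => ?_) (by simp)
  have e1 := wt_add i b k
  have e2 := wt_add i j k
  by_cases h1 : wt i b < wt i j
  · rw [h i b h1, zero_mul]
  · by_cases h2 : wt b k < wt j k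
    · rw [h' b k h2, mul_zero]
    · exact absurd (wt_inj (wt_pos.2 hij) (by omega : wt i j = wt i b)).2.symm hb

theorem Sp.mul_apply' {M N : Matrix (Fin n) (Fin n) F} {i j k : Fin n} (hij : i < j) (hjk : j < k)
    (h : Sp (wt i j) M) (h' : Sp (wt j k) N) : (N * M) i k = 0 := by
  rw [Matrix.mul_apply]
  refine Finset.sum_eq_zero fun b _ => ?_
  have e1 := wt_add i b k
  have e2 := wt_add i j k
  by_cases h1 : wt i b < wt j k
  · rw [h' i b h1, zero_mul]
  · by_cases h2 : wt b k < wt i j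
    · rw [h b k h2, mul_zero]
    · exact absurd (wt_inj (wt_pos.2 hjk) (by omega : wt j k = wt i b)).1 hij.ne'

variable {H : Type*} [Group H] (ρ : H →* Matrix (Fin n) (Fin n) F)

theorem rho_mul (u v : H) :
    ρ (u * v) - 1 = (ρ u - 1) + (ρ v - 1) + (ρ u - 1) * (ρ v - 1) := by
  rw [map_mul]; noncomm_ring

variable {ρ}

theorem sp_mul {t : ℤ} (ht : 1 ≤ t) {u v : H} (hu : Sp t (ρ u - 1)) (hv : Sp t (ρ v - 1)) :
    Sp t (ρ (u * v) - 1) ∧
      ∀ a b, wt a b = t → (ρ (u * v) - 1) a b = (ρ u - 1) a b + (ρ v - 1) a b := by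
  rw [rho_mul]
  refine ⟨(hu.add hv).add ((hu.mul hv).mono (by omega)), fun a b hab => ?_⟩
  rw [Matrix.add_apply, Matrix.add_apply, hu.mul hv a b (by omega), add_zero]

theorem sp_pow {t : ℤ} (ht : 1 ≤ t) {u : H} (hu : Sp t (ρ u - 1)) (m : ℕ) :
    Sp t (ρ (u ^ m) - 1) ∧ ∀ a b, wt a b = t → (ρ (u ^ m) - 1) a b = m * (ρ u - 1) a b := by
  induction m with
  | zero => exact ⟨fun a b _ => by simp, fun a b _ => by simp⟩
  | succ m ih =>
    rw [pow_succ]
    obtain ⟨h1, h2⟩ := sp_mul ht ih.1 hu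
    refine ⟨h1, fun a b hab => ?_⟩
    rw [h2 a b hab, ih.2 a b hab]
    push_cast
    ring

variable (ρ) in
/-- `(a, b)` is the leading position of `g`. -/
def Lead (g : H) (a b : Fin n) : Prop := a < b ∧ Sp (wt a b) (ρ g - 1) ∧ (ρ g - 1) a b ≠ 0

theorem Lead.comm (h1 : ∀ g, Sp 1 (ρ g - 1)) {g h : H} {i j k : Fin n} (hg : Lead ρ g i j)
    (hh : Lead ρ h j k) : Lead ρ (g * h * (g⁻¹ * h⁻¹)) i k := by
  obtain ⟨hij, sg, cg⟩ := hg
  obtain ⟨hjk, sh, ch⟩ := hh
  have e0 : ρ h * ρ g * ρ (g⁻¹ * h⁻¹) = 1 := by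
    rw [← map_mul, ← map_mul, ← map_one ρ]; congr 1; group
  set X := ρ g - 1 with hX
  set Y := ρ h - 1 with hY
  have e : ρ (g * h * (g⁻¹ * h⁻¹)) - 1 =
      (X * Y - Y * X) + (X * Y - Y * X) * (ρ (g⁻¹ * h⁻¹) - 1) := by
    rw [map_mul, map_mul, ← e0, hX, hY]
    have : (ρ g - 1) * (ρ h - 1) - (ρ h - 1) * (ρ g - 1) = ρ g * ρ h - ρ h * ρ g := by
      noncomm_ring
    rw [this, e0, mul_sub, mul_one, add_sub_cancel, sub_mul, e0]
  have sD : Sp (wt i k) (X * Y - Y * X) := by
    have a1 := sg.mul sh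
    have a2 := sh.mul sg
    rw [wt_add] at a1
    rw [add_comm, wt_add] at a2
    exact a1.sub a2
  have sW := sD.mul (h1 (g⁻¹ * h⁻¹))
  refine ⟨hij.trans hjk, ?_, ?_⟩
  · rw [e]; exact sD.add (sW.mono (by omega))
  · rw [e, Matrix.add_apply, sW i k (by omega), add_zero, Matrix.sub_apply, sg.mul_apply hij sh,
      sg.mul_apply' hij hjk sh, sub_zero]
    exact mul_ne_zero cg ch

theorem gen_of_lead (hF : ∀ c : F, ∃ m : ℕ, (m : F) = c) (h1 : ∀ g, Sp 1 (ρ g - 1))
    (L : Subgroup H) (hL : ∀ g a b, Lead ρ g a b → ∃ u ∈ L, Lead ρ u a b) (g : H) :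
    ∃ u ∈ L, ρ u = ρ g := by
  have key : ∀ t : ℤ, t ≤ 2 ^ n → ∀ g, Sp t (ρ g - 1) → ∃ u ∈ L, ρ u = ρ g := by
    intro t ht
    induction t, ht using Int.leInductionDown with
    | base =>
      intro g hg
      refine ⟨1, L.one_mem, ?_⟩
      rw [map_one, eq_comm, ← sub_eq_zero]
      ext a b
      exact hg a b (wt_lt a b)
    | pred t _ ih =>
      intro g hg
      by_cases hc : ∃ a b, wt a b = t - 1 ∧ (ρ g - 1) a b ≠ 0
      · obtain ⟨a, b, hab, hc⟩ := hc
        have ht1 : 1 ≤ t - 1 := by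
          by_contra hlt
          exact hc (h1 g a b (by omega))
        obtain ⟨u, hu, -, su, cu⟩ := hL g a b ⟨wt_pos.1 (by omega), hab ▸ hg, hc⟩
        rw [hab] at su
        obtain ⟨m, hm⟩ := hF (-(ρ g - 1) a b / (ρ u - 1) a b)
        obtain ⟨p1, p2⟩ := sp_pow ht1 su m
        obtain ⟨q1, q2⟩ := sp_mul ht1 hg p1
        obtain ⟨v, hv, e⟩ := ih (g * u ^ m) (fun c d hcd => by
          by_cases h3 : wt c d = t - 1
          · obtain ⟨rfl, rfl⟩ := wt_inj (by omega : 0 < wt a b) (hab.trans h3.symm)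
            rw [q2 _ _ hab, p2 _ _ hab, hm]
            field_simp
            ring
          · exact q1 c d (by omega))
        refine ⟨v * (u ^ m)⁻¹, L.mul_mem hv (L.inv_mem (L.pow_mem hu m)), ?_⟩
        rw [map_mul, e, ← map_mul, mul_inv_cancel_right]
      · push Not at hc
        exact ih g fun c d hcd => by
          by_cases h3 : wt c d = t - 1
          · exact hc c d h3
          · exact hg c d (by omega)
  by_cases hn : (1 : ℤ) ≤ 2 ^ n
  · exact key 1 hn g (h1 g)
  · exact absurd (one_le_pow₀ (by norm_num)) hn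

/-- Mantel's bound for a set of increasing pairs without transitive triangle. -/
theorem card_le_of_no_triangle (T : Finset (Fin n × Fin n)) (hlt : ∀ x ∈ T, x.1 < x.2)
    (htr : ∀ a b c, (a, b) ∈ T → (b, c) ∈ T → (a, c) ∈ T → False) : T.card ≤ n ^ 2 / 4 := by
  classical
  let Γ : SimpleGraph (Fin n) :=
    { Adj := fun a b => (a, b) ∈ T ∨ (b, a) ∈ T
      symm := ⟨fun a b h => h.symm⟩
      loopless := ⟨fun a h => by
        rcases h with h | h <;> exact lt_irrefl _ (hlt _ h)⟩ }
  have cf : Γ.CliqueFree (2 + 1) := by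
    intro s hs
    obtain ⟨a, b, c, hab, hac, hbc, -⟩ := SimpleGraph.is3Clique_iff.1 hs
    rcases hab with h1 | h1 <;> rcases hac with h2 | h2 <;> rcases hbc with h3 | h3
    · exact htr _ _ _ h1 h3 h2
    · exact htr _ _ _ h2 h3 h1
    · exact lt_irrefl _ (((hlt _ h1).trans (hlt _ h3)).trans (hlt _ h2))
    · exact htr _ _ _ h2 h1 h3
    · exact htr _ _ _ h1 h2 h3
    · exact lt_irrefl _ (((hlt _ h2).trans (hlt _ h3)).trans (hlt _ h1))
    · exact htr _ _ _ h3 h2 h1
    · exact htr _ _ _ h3 h1 h2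
  have h1 := cf.card_edgeFinset_le
  simp only [Fintype.card_fin] at h1
  have h2 : T.card ≤ Γ.edgeFinset.card := by
    refine Finset.card_le_card_of_injOn (fun x => s(x.1, x.2)) (fun x hx => ?_) ?_
    · simp only [SimpleGraph.coe_edgeFinset, SimpleGraph.mem_edgeSet]
      exact Or.inl hx
    · intro x hx y hy e
      rcases Sym2.eq_iff.1 e with ⟨e1, e2⟩ | ⟨e1, e2⟩
      · exact Prod.ext e1 e2
      · have a1 := hlt x hx
        have a2 := hlt y hy
        rw [e1, e2] at a1
        exact absurd a1 (not_lt.2 a2.le)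
  have h3 : (n % 2).choose 2 = 0 := Nat.choose_eq_zero_of_lt (Nat.mod_lt _ (by norm_num))
  rw [h3] at h1
  refine h2.trans (h1.trans ?_)
  simp only [add_zero, Nat.add_one_sub_one, mul_one]
  exact Nat.div_le_div_right (Nat.sub_le _ _)

/-- A group of unitriangular matrices over a prime field is generated by `n ^ 2 / 4` elements. -/
theorem exists_gen_unitri (hF : ∀ c : F, ∃ m : ℕ, (m : F) = c) (h1 : ∀ g, Sp 1 (ρ g - 1)) :
    ∃ S : Finset H, S.card ≤ n ^ 2 / 4 ∧
      ∀ g, ∃ u ∈ Subgroup.closure (S : Set H), ρ u = ρ g := by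
  classical
  let R : Fin n → Fin n → Prop := fun a b => ∃ g, Lead ρ g a b
  let T : Finset (Fin n × Fin n) :=
    Finset.univ.filter fun x => R x.1 x.2 ∧ ¬ ∃ j, R x.1 j ∧ R j x.2
  have hT : ∀ x, x ∈ T ↔ R x.1 x.2 ∧ ¬ ∃ j, R x.1 j ∧ R j x.2 := fun x => by simp [T]
  let f : Fin n × Fin n → H := fun x => if h : R x.1 x.2 then h.choose else 1
  have hf : ∀ a b, R a b → Lead ρ (f (a, b)) a b := fun a b h => by
    simp only [f, dif_pos h]
    exact h.choose_spec
  refine ⟨T.image f, Finset.card_image_le.trans (card_le_of_no_triangle T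
    (fun x hx => ((hT x).1 hx).1.choose_spec.1)
    (fun a b c h1 h2 h3 => ((hT _).1 h3).2 ⟨b, ((hT _).1 h1).1, ((hT _).1 h2).1⟩)), ?_⟩
  refine gen_of_lead hF h1 _ ?_
  have key : ∀ (m : ℕ) (a b : Fin n), (b : ℕ) - a ≤ m → R a b →
      ∃ u ∈ Subgroup.closure ((T.image f : Finset H) : Set H), Lead ρ u a b := by
    intro m
    induction m with
    | zero =>
      intro a b hm h
      have : (a : ℕ) < b := h.choose_spec.1
      omega
    | succ m ih =>
      intro a b hm h
      by_cases hj : ∃ j, R a j ∧ R j b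
      · obtain ⟨j, h2, h3⟩ := hj
        have l1 : (a : ℕ) < j := h2.choose_spec.1
        have l2 : (j : ℕ) < b := h3.choose_spec.1
        obtain ⟨u, hu, lu⟩ := ih a j (by omega) h2
        obtain ⟨v, hv, lv⟩ := ih j b (by omega) h3
        exact ⟨_, mul_mem (mul_mem hu hv) (mul_mem (inv_mem hu) (inv_mem hv)), lu.comm h1 lv⟩
      · refine ⟨f (a, b), Subgroup.subset_closure ?_, hf a b h⟩
        exact Finset.mem_coe.2 (Finset.mem_image_of_mem f ((hT _).2 ⟨h, hj⟩))
  exact fun g a b h => key _ a b le_rfl ⟨g, h⟩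

end Lead

open Matrix MatrixGroups in
/-- Patterson: the image of a finite `p`-group in `GL_n(p)` is generated by `n ^ 2 / 4` elements. -/
theorem patterson {p n : ℕ} [hp : Fact p.Prime] {H : Type*} [Group H] (hH : IsPGroup p H)
    (ρ : H →* Matrix (Fin n) (Fin n) (ZMod p)) :
    ∃ S : Finset H, S.card ≤ n ^ 2 / 4 ∧
      ∀ g, ∃ u ∈ Subgroup.closure (S : Set H), ρ u = ρ g := by
  have hdet : ∀ g, (ρ g).det = 1 := fun g => by
    obtain ⟨k, hk⟩ := hH g
    have : (ρ g).det ^ p ^ k = 1 := by rw [← det_pow, ← map_pow, hk, map_one, det_one]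
    rwa [ZMod.pow_card_pow] at this
  let σ : H →* SL(n, ZMod p) :=
    { toFun := fun g => ⟨ρ g, hdet g⟩
      map_one' := Subtype.ext (map_one ρ)
      map_mul' := fun a b => Subtype.ext (map_mul ρ a b) }
  have hr : IsPGroup p σ.range := hH.of_surjective σ.rangeRestrict σ.rangeRestrict_surjective
  obtain ⟨Q, hQ⟩ := hr.exists_le_sylow
  obtain ⟨U, hU⟩ := H62.exists_sylow_UT (n := n) (K := ZMod p) p
  obtain ⟨x, hx⟩ := MulAction.exists_smul_eq SL(n, ZMod p) Q U
  let τ : H →* Matrix (Fin n) (Fin n) (ZMod p) :=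
    { toFun := fun g => (x * σ g * x⁻¹ : SL(n, ZMod p))
      map_one' := by simp
      map_mul' := fun a b => by
        have : x * σ (a * b) * x⁻¹ = x * σ a * x⁻¹ * (x * σ b * x⁻¹) := by
          rw [map_mul]; group
        rw [this]
        rfl }
  have hτ : ∀ g, x * σ g * x⁻¹ ∈ H62.UT n (ZMod p) := fun g => by
    rw [← hU, ← hx, Sylow.coe_subgroup_smul, Subgroup.mem_pointwise_smul_iff_inv_smul_mem]
    have := hQ ⟨g, rfl⟩
    simpa [mul_assoc] using this
  obtain ⟨S, h1, h2⟩ := exists_gen_unitri (ρ := τ) (fun c => ⟨c.val, ZMod.natCast_zmod_val c⟩)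
    (fun g a b hab => by
      obtain ⟨e1, e2⟩ := H62.mem_UT.1 (hτ g)
      have hle : b ≤ a := not_lt.1 fun h => by
        have := wt_pos.2 h
        omega
      rcases hle.lt_or_eq with h | rfl
      · rw [Matrix.sub_apply, Matrix.one_apply_ne h.ne', sub_zero]
        exact e1 a b h
      · rw [Matrix.sub_apply, Matrix.one_apply_eq, sub_eq_zero]
        exact e2 b)
  refine ⟨S, h1, fun g => ?_⟩
  obtain ⟨u, hu, e⟩ := h2 g
  refine ⟨u, hu, ?_⟩
  have e' : x * σ u * x⁻¹ = x * σ g * x⁻¹ := Subtype.ext e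
  have e'' : σ u = σ g := by simpa using e'
  exact congrArg Subtype.val e''

section Central

universe u

variable {p : ℕ} [hp : Fact p.Prime]

theorem card_lt' {G : Type*} [Group G] [Finite G] {A B : Subgroup G} (h : A < B) :
    Nat.card A < Nat.card B :=
  lt_of_le_of_ne (Subgroup.card_le_of_le h.le) fun e =>
    h.ne (Subgroup.eq_of_le_of_card_ge h.le e.ge)

theorem pow_of_class_two (hp2 : p ≠ 2) {G : Type*} [Group G] {u v c : G} (h : v * u = u * v * c)
    (hc : c ∈ Subgroup.center G) (hcp : c ^ p = 1) : (u * v) ^ p = u ^ p * v ^ p := by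
  have hcc : ∀ g, Commute c g := fun g => (Subgroup.mem_center_iff.1 hc g).symm
  rw [H23.mul_pow_of_comm h (hcc u) (hcc v)]
  obtain ⟨m, hm⟩ : p ∣ p.choose 2 :=
    hp.out.dvd_choose_self (by norm_num) (lt_of_le_of_ne hp.out.two_le hp2.symm)
  rw [hm, pow_mul, hcp, one_pow, mul_one]

theorem comm_pow_eq_one (hp2 : p ≠ 2) {G : Type*} [Group G] [Finite G] (hG : IsPGroup p G)
    (hc : ∀ x : G, x ^ p = 1 → x ∈ Subgroup.center G) (K : Subgroup G) :
    ∀ x ∈ K, ∀ g ∈ K, x ^ p ∈ Subgroup.center G → (x⁻¹ * (g * x * g⁻¹)) ^ p = 1 := by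
  induction K using WellFoundedLT.induction with
  | ind K ih =>
  intro x hx g hg hxp
  by_cases htop : Subgroup.zpowers (⟨x, hx⟩ : K) = ⊤
  · obtain ⟨m, hm⟩ : (⟨g, hg⟩ : K) ∈ Subgroup.zpowers (⟨x, hx⟩ : K) := htop ▸ Subgroup.mem_top _
    have hm' : x ^ m = g := congrArg Subtype.val hm
    rw [← hm']
    have : x⁻¹ * (x ^ m * x * (x ^ m)⁻¹) = 1 := by group
    rw [this, one_pow]
  · obtain ⟨M, hM, hle⟩ := (eq_top_or_exists_le_coatom _).resolve_left htop
    have hnil : Group.IsNilpotent K := (hG.to_subgroup K).isNilpotent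
    have hMn : M.Normal := Subgroup.NormalizerCondition.normal_of_coatom M
      (Group.normalizerCondition_of_isNilpotent) hM
    have hlt : M.map K.subtype < K := by
      refine lt_of_le_of_ne (Subgroup.map_subtype_le M) fun e => hM.1 ?_
      rw [eq_top_iff]
      intro y _
      obtain ⟨z, hz, e'⟩ : (y : G) ∈ M.map K.subtype := e.symm ▸ y.2
      exact (Subtype.ext e' : z = y) ▸ hz
    have hxM : (⟨x, hx⟩ : K) ∈ M := hle (Subgroup.mem_zpowers _)
    have h1 : x ∈ M.map K.subtype := ⟨_, hxM, rfl⟩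
    have h2 : g * x * g⁻¹ ∈ M.map K.subtype := ⟨_, hMn.conj_mem _ hxM ⟨g, hg⟩, rfl⟩
    set y := g * x * g⁻¹ with hy
    have h3 := ih _ hlt x h1 y⁻¹ (inv_mem h2) hxp
    have h4 := hc _ h3
    have hyp : y ^ p = x ^ p := by
      rw [hy, conj_pow, Subgroup.mem_center_iff.1 hxp g, mul_inv_cancel_right]
    set c := x⁻¹ * (y⁻¹ * x * y⁻¹⁻¹) with hcdef
    have e : y * x⁻¹ = x⁻¹ * y * c := by
      have a1 : x * y = y * x * c := by rw [hcdef]; group
      have a2 := Subgroup.mem_center_iff.1 h4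
      calc y * x⁻¹ = x⁻¹ * (x * y) * x⁻¹ := by group
        _ = x⁻¹ * y * (x * c) * x⁻¹ := by rw [a1]; group
        _ = x⁻¹ * y * c := by rw [a2 x]; group
    rw [pow_of_class_two hp2 e h4 h3, hyp, inv_pow, inv_mul_cancel]

/-- The elements of order dividing `p`, when they are central. -/
def om (p : ℕ) (G : Type*) [Group G] (hc : ∀ x : G, x ^ p = 1 → x ∈ Subgroup.center G) :
    Subgroup G where
  carrier := {x | x ^ p = 1}
  one_mem' := one_pow p
  mul_mem' := fun {a b} ha hb => by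
    have : Commute a b := Subgroup.mem_center_iff.1 (hc b hb) a
    show (a * b) ^ p = 1
    rw [this.mul_pow, ha, hb, one_mul]
  inv_mem' := fun {a} ha => by
    show a⁻¹ ^ p = 1
    rw [inv_pow, ha, inv_one]

theorem gen_of_central (hp2 : p ≠ 2) (N : ℕ) :
    ∀ (G : Type u) [Group G] [Finite G], Nat.card G ≤ N → IsPGroup p G →
      (∀ x : G, x ^ p = 1 → x ∈ Subgroup.center G) →
      ∀ k : ℕ, Nat.card {x : G // x ^ p = 1} ≤ p ^ k →
      ∃ S : Finset G, S.card ≤ k ∧ Subgroup.closure (S : Set G) = ⊤ := by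
  classical
  induction N with
  | zero =>
    intro G _ _ h
    exact absurd h (not_le.2 Nat.card_pos)
  | succ N ih =>
    intro G _ _ hN hG hc k hk
    rcases subsingleton_or_nontrivial G with hs | hs
    · exact ⟨∅, Nat.zero_le _, Subsingleton.elim _ _⟩
    let Ω := om p G hc
    have hΩ : ∀ x, x ∈ Ω ↔ x ^ p = 1 := fun x => Iff.rfl
    have hΩn : Ω.Normal := ⟨fun a ha g => by
      rw [Subgroup.mem_center_iff.1 (hc a ha) g, mul_inv_cancel_right]; exact ha⟩
    have hkΩ : Nat.card Ω ≤ p ^ k := hk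
    by_cases hfr : Ω ≤ frattini G
    · have hne : Ω ≠ ⊥ := by
        obtain ⟨m, hm0, hm⟩ := hG.nontrivial_iff_card.1 hs
        obtain ⟨x, hx⟩ := exists_prime_orderOf_dvd_card' (G := G) p
          (hm ▸ dvd_pow_self p hm0.ne')
        intro e
        have : x ∈ Ω := by rw [hΩ, ← hx, pow_orderOf_eq_one]
        rw [e, Subgroup.mem_bot] at this
        rw [this, orderOf_one] at hx
        exact hp.out.one_lt.ne hx
      have hlt : Nat.card (G ⧸ Ω) ≤ N := by
        have h1 := Subgroup.card_eq_card_quotient_mul_card_subgroup Ω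
        have h2 := (Subgroup.one_lt_card_iff_ne_bot Ω).2 hne
        have h3 : 0 < Nat.card (G ⧸ Ω) := Nat.card_pos
        nlinarith
      have hcomm : ∀ x : G, (x : G ⧸ Ω) ^ p = 1 → ∀ g, (x⁻¹ * (g * x * g⁻¹)) ^ p = 1 :=
        fun x hx g => by
          have : x ^ p ∈ Ω := by
            rw [← QuotientGroup.eq_one_iff, QuotientGroup.mk_pow, hx]
          exact comm_pow_eq_one hp2 hG hc ⊤ x trivial g trivial (hc _ this)
      obtain ⟨S, hS1, hS2⟩ := ih (G ⧸ Ω) hlt (hG.to_quotient Ω) (fun y hy => by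
        obtain ⟨x, rfl⟩ := QuotientGroup.mk_surjective y
        rw [Subgroup.mem_center_iff]
        intro g
        obtain ⟨g, rfl⟩ := QuotientGroup.mk_surjective g
        have := (QuotientGroup.eq (s := Ω)).2 (hcomm x hy g)
        rw [QuotientGroup.mk_mul, QuotientGroup.mk_mul, QuotientGroup.mk_inv] at this
        rw [eq_mul_inv_iff_mul_eq] at this
        exact this.symm) k (by
        refine le_trans ?_ hk
        have hout : ∀ y : {y : G ⧸ Ω // y ^ p = 1}, ((y.1.out : G) : G ⧸ Ω) ^ p = 1 := fun y => by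
          rw [QuotientGroup.out_eq']; exact y.2
        refine Nat.card_le_card_of_injective
          (fun y => (⟨y.1.out ^ p, ?_⟩ : {x : G // x ^ p = 1})) ?_
        · rw [← hΩ, ← QuotientGroup.eq_one_iff, QuotientGroup.mk_pow, hout]
        · intro y z e
          have e' : y.1.out ^ p = z.1.out ^ p := congrArg Subtype.val e
          apply Subtype.ext
          rw [← QuotientGroup.out_eq' y.1, ← QuotientGroup.out_eq' z.1, QuotientGroup.eq, hΩ]
          set a := y.1.out
          set b := z.1.out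
          have h3 := hcomm a (hout y) b⁻¹
          have h4 := hc _ h3
          set c := a⁻¹ * (b⁻¹ * a * b⁻¹⁻¹) with hcdef
          have e2 : b * a⁻¹ = a⁻¹ * b * c := by
            have a1 : a * b = b * a * c := by rw [hcdef]; group
            have a2 := Subgroup.mem_center_iff.1 h4
            calc b * a⁻¹ = a⁻¹ * (a * b) * a⁻¹ := by group
              _ = a⁻¹ * b * (a * c) * a⁻¹ := by rw [a1]; group
              _ = a⁻¹ * b * c := by rw [a2 a]; group
          rw [pow_of_class_two hp2 e2 h4 h3, inv_pow, e', inv_mul_cancel])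
      refine ⟨S.image Quotient.out, Finset.card_image_le.trans hS1, frattini_nongenerating ?_⟩
      rw [eq_top_iff]
      intro g _
      have hmap : (Subgroup.closure ((S.image Quotient.out : Finset G) : Set G)).map
          (QuotientGroup.mk' Ω) = ⊤ := by
        rw [eq_top_iff, ← hS2, Subgroup.closure_le]
        intro y hy
        exact ⟨y.out, Subgroup.subset_closure
          (Finset.mem_coe.2 (Finset.mem_image_of_mem _ hy)), QuotientGroup.out_eq' y⟩
      obtain ⟨u, hu, e⟩ : (g : G ⧸ Ω) ∈ (Subgroup.closure ((S.image Quotient.out : Finset G) :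
          Set G)).map (QuotientGroup.mk' Ω) := hmap ▸ Subgroup.mem_top _
      have h5 : u⁻¹ * g ∈ Ω := QuotientGroup.eq.1 e
      have : g = u * (u⁻¹ * g) := by group
      rw [this]
      exact Subgroup.mul_mem_sup hu (hfr h5)
    · obtain ⟨M, hM, hΩM⟩ : ∃ M : Subgroup G, IsCoatom M ∧ ¬ Ω ≤ M := by
        by_contra hcon
        push Not at hcon
        exact hfr (le_iInf₂ fun M hM => hcon M hM)
      obtain ⟨x, hx, hxM⟩ := SetLike.not_le_iff_exists.1 hΩM
      have hlt : Nat.card M ≤ N := by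
        have := card_lt' (lt_top_iff_ne_top.2 hM.1)
        rw [Subgroup.card_top] at this
        omega
      obtain ⟨a, ha⟩ := IsPGroup.iff_card.1 (hG.to_subgroup (Ω ⊓ M))
      obtain ⟨b, hb⟩ := IsPGroup.iff_card.1 (hG.to_subgroup Ω)
      have hab : a < b := by
        have := card_lt'
          (lt_of_le_of_ne (inf_le_left : Ω ⊓ M ≤ Ω) fun e => hΩM (e ▸ inf_le_right))
        rw [ha, hb] at this
        exact (Nat.pow_lt_pow_iff_right hp.out.one_lt).1 this
      have hbk : b ≤ k := by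
        rw [hb] at hkΩ
        exact (Nat.pow_le_pow_iff_right hp.out.one_lt).1 hkΩ
      obtain ⟨S, hS1, hS2⟩ := ih M hlt (hG.to_subgroup M) (fun y hy => by
        rw [Subgroup.mem_center_iff]
        intro g
        exact Subtype.ext (Subgroup.mem_center_iff.1 (hc y (congrArg Subtype.val hy)) g)) a (by
        rw [← ha]
        refine Nat.card_le_card_of_injective
          (fun y => (⟨y.1, congrArg Subtype.val y.2, y.1.2⟩ : ↥(Ω ⊓ M))) ?_
        intro y z e
        exact Subtype.ext (Subtype.ext (congrArg (fun w : ↥(Ω ⊓ M) => (w : G)) e)))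
      refine ⟨insert x (S.image M.subtype), (Finset.card_insert_le _ _).trans ?_, ?_⟩
      · have := Finset.card_image_le (s := S) (f := M.subtype)
        omega
      · refine hM.2 _ (lt_of_le_of_ne ?_ fun e => hxM (e ▸ Subgroup.subset_closure (by simp)))
        intro y hy
        have : (⟨y, hy⟩ : M) ∈ Subgroup.closure (S : Set M) := hS2 ▸ Subgroup.mem_top _
        have h6 : y ∈ (Subgroup.closure (S : Set M)).map M.subtype := ⟨_, this, rfl⟩
        rw [MonoidHom.map_closure] at h6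
        refine Subgroup.closure_mono ?_ h6
        rw [Finset.coe_insert, Finset.coe_image]
        exact Set.subset_insert _ _

end Central

end Cfsg.Agent.H72.Pat
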