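import Cfsg.Prelude.Def_SylowChains
import Cfsg.Agent.H72.SylowIn
import Mathlib.Logic.Relation

/-! Control of Sylow intersections by a family of subgroups, as a reflexive transitive closure,
relative to a subgroup `M` of the ambient group. -/

set_option autoImplicit false

namespace Cfsg.Agent.H72

open Subgroup

theorem reflTransGen_iff_fin {α : Type*} {r : α → α → Prop} {a b : α} :
    Relation.ReflTransGen r a b ↔ ∃ (n : ℕ) (c : Fin (n + 1) → α), c 0 = a ∧ c (Fin.last n) = b ∧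
      ∀ i : Fin n, r (c i.castSucc) (c i.succ) := by
  constructor
  · intro h
    induction h with
    | refl => exact ⟨0, fun _ => a, rfl, rfl, fun i => i.elim0⟩
    | @tail b d _ hbd ih =>
      obtain ⟨n, c, h0, hl, hc⟩ := ih
      refine ⟨n + 1, Fin.snoc c d, ?_, by simp, fun i => ?_⟩
      · have : (0 : Fin (n + 2)) = (0 : Fin (n + 1)).castSucc := rfl
        rw [this, Fin.snoc_castSucc, h0]
      · induction i using Fin.lastCases with
        | last => 
          rw [Fin.succ_last, Fin.snoc_last, Fin.snoc_castSucc, hl]; exact hbd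
        | cast j =>
          rw [Fin.succ_castSucc, Fin.snoc_castSucc, Fin.snoc_castSucc]; exact hc j
  · rintro ⟨n, c, rfl, rfl, hc⟩
    have : ∀ i : Fin (n + 1), Relation.ReflTransGen r (c 0) (c i) := by
      intro i
      induction i using Fin.induction with
      | zero => exact .refl
      | succ j ih => exact ih.tail (hc j)
    exact this _

theorem reflTransGen_lift {α β : Type*} {r : α → α → Prop} {s : β → β → Prop} (f : α → β)
    {a b : α} (hab : Relation.ReflTransGen r a b) (h : ∀ a b, r a b → s (f a) (f b)) :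
    Relation.ReflTransGen s (f a) (f b) := by
  induction hab with
  | refl => exact .refl
  | tail _ hbd ih => exact ih.tail (h _ _ hbd)

variable {G : Type*} [Group G]

theorem map_cj {G' : Type*} [Group G'] (f : G →* G') (x : G) (H : Subgroup G) :
    (cj x H).map f = cj (f x) (H.map f) := by
  simp only [cj, map_map]
  congr 1
  ext y
  simp

theorem isSylowIn_map_iff {G' : Type*} [Group G'] {p : ℕ} {f : G →* G'}
    (hf : Function.Injective f) {P H : Subgroup G} :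
    IsSylowIn p (P.map f) (H.map f) ↔ IsSylowIn p P H := by
  constructor
  · intro h
    refine ⟨(map_le_map_iff_of_injective hf).1 h.le,
      h.isPGroup.of_equiv (P.equivMapOfInjective f hf).symm, fun Q hQ h1 h2 => ?_⟩
    exact map_injective hf (h.maximal _ (hQ.map f) (map_mono h1) (map_mono h2))
  · intro h
    refine ⟨map_mono h.le, h.isPGroup.map f, fun Q hQ h1 h2 => ?_⟩
    have h3 : (Q.comap f).map f = Q := map_comap_eq_self (h2.trans (map_le_range _ _))
    have h4 : Q.comap f = P := by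
      refine h.maximal _ (hQ.comap_of_injective f hf) (map_le_iff_le_comap.1 h1) ?_
      rw [← map_le_map_iff_of_injective hf, h3]; exact h2
    rw [← h3, h4]

theorem mem_sylowMembers {p : ℕ} {𝓕 : Set (Subgroup G)} {S X : Subgroup G} :
    X ∈ Cfsg.sylowMembers p 𝓕 S ↔ X ∈ 𝓕 ∧ IsSylowIn p (S ⊓ X) X := by
  rw [isSylowIn_iff]; rfl

theorem cj_mem_of_isNormalSet {𝓕 : Set (Subgroup G)} (h : Cfsg.IsNormalSet 𝓕) {X : Subgroup G}
    (hX : X ∈ 𝓕) (g : G) : cj g X ∈ 𝓕 := by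
  have := h X hX g⁻¹
  unfold Cfsg.subgroupConjRight at this
  rwa [inv_inv] at this

/-- One link between the Sylow `p`-subgroups `S` and `T` of `M` through a member of `𝓕`,
over `A`. -/
def SylLink (p : ℕ) (M : Subgroup G) (𝓕 : Set (Subgroup G)) (A S T : Subgroup G) : Prop :=
  IsSylowIn p S M ∧ IsSylowIn p T M ∧ A ≤ S ∧ A ≤ T ∧ ∃ X ∈ 𝓕, ∃ x ∈ X,
    IsSylowIn p (S ⊓ X) X ∧ IsSylowIn p (T ⊓ X) X ∧ cj x⁻¹ T = S ∧ A ≤ X

/-- Chains of links. -/
abbrev SylChain (p : ℕ) (M : Subgroup G) (𝓕 : Set (Subgroup G)) (A : Subgroup G) :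
    Subgroup G → Subgroup G → Prop := Relation.ReflTransGen (SylLink p M 𝓕 A)

theorem SylLink.mono {p : ℕ} {M : Subgroup G} {𝓕 𝓕' : Set (Subgroup G)} {A A' S T : Subgroup G}
    (h : SylLink p M 𝓕 A S T) (hF : 𝓕 ⊆ 𝓕') (hA : A' ≤ A) : SylLink p M 𝓕' A' S T := by
  obtain ⟨h1, h2, h3, h4, X, hX, x, hx, h5, h6, h7, h8⟩ := h
  exact ⟨h1, h2, hA.trans h3, hA.trans h4, X, hF hX, x, hx, h5, h6, h7, hA.trans h8⟩

theorem SylChain.mono' {p : ℕ} {M : Subgroup G} {𝓕 𝓕' : Set (Subgroup G)} {A A' S T : Subgroup G}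
    (h : SylChain p M 𝓕 A S T) (hF : 𝓕 ⊆ 𝓕') (hA : A' ≤ A) : SylChain p M 𝓕' A' S T :=
  reflTransGen_lift id h (fun _ _ h => h.mono hF hA)

theorem SylLink.cj {p : ℕ} {𝓕 : Set (Subgroup G)} {A S T : Subgroup G}
    (h : SylLink p ⊤ 𝓕 A S T) (g : G) (hF : ∀ X ∈ 𝓕, H72.cj g X ∈ 𝓕) :
    SylLink p ⊤ 𝓕 (H72.cj g A) (H72.cj g S) (H72.cj g T) := by
  obtain ⟨h1, h2, h3, h4, X, hX, x, hx, h5, h6, h7, h8⟩ := h
  refine ⟨h1.cj_of_mem (mem_top g), h2.cj_of_mem (mem_top g), cj_mono g h3, cj_mono g h4,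
    H72.cj g X, hF X hX, g * x * g⁻¹, conj_mem_cj hx, ?_, ?_, ?_, cj_mono g h8⟩
  · rw [← cj_inf]; exact h5.cj g
  · rw [← cj_inf]; exact h6.cj g
  · rw [← h7, ← cj_mul, ← cj_mul]
    congr 1
    group

theorem SylChain.cj {p : ℕ} {𝓕 : Set (Subgroup G)} {A S T : Subgroup G}
    (h : SylChain p ⊤ 𝓕 A S T) (g : G) (hF : ∀ X ∈ 𝓕, H72.cj g X ∈ 𝓕) :
    SylChain p ⊤ 𝓕 (H72.cj g A) (H72.cj g S) (H72.cj g T) :=
  reflTransGen_lift (H72.cj g) h (fun _ _ h => h.cj g hF)

theorem controls_iff_top {p : ℕ} {𝓕 : Set (Subgroup G)} :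
    Cfsg.ControlsSylowIntersections p 𝓕 ↔ ∀ S T : Subgroup G, IsSylowIn p S ⊤ → IsSylowIn p T ⊤ →
      S ⊓ T ≠ ⊥ → SylChain p ⊤ 𝓕 (S ⊓ T) S T := by
  constructor
  · intro h S T hS hT hne
    by_cases hST : S = T
    · rw [hST]
    obtain ⟨S, rfl⟩ := hS.exists_sylow_top
    obtain ⟨T, rfl⟩ := hT.exists_sylow_top
    obtain ⟨n, c, X, x, h0, hl, hc⟩ := h S T (fun e => hST (by rw [e])) hne
    refine reflTransGen_iff_fin.2 ⟨n, fun i => c i, by simp only [h0], by simp only [hl], ?_⟩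
    have hA : ∀ i : Fin (n + 1), (S : Subgroup G) ⊓ (T : Subgroup G) ≤ (c i : Subgroup G) := by
      intro i
      induction i using Fin.cases with
      | zero => rw [h0]; exact inf_le_left
      | succ j => exact (hc j).2.2.2.2.trans inf_le_left
    intro i
    obtain ⟨h1, h2, h3, h4, h5⟩ := hc i
    rw [mem_sylowMembers] at h1 h2
    exact ⟨isSylowIn_top _, isSylowIn_top _, hA _, hA _, X i, h1.1, x i, h3, h1.2, h2.2, h4,
      h5.trans inf_le_right⟩
  · intro h S T _ hne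
    obtain ⟨n, c, h0, hl, hc⟩ :=
      reflTransGen_iff_fin.1 (h S T (isSylowIn_top S) (isSylowIn_top T) hne)
    have hs : ∀ i : Fin (n + 1), ∃ P : Sylow p G, (P : Subgroup G) = c i := by
      intro i
      induction i using Fin.cases with
      | zero => exact ⟨S, h0.symm⟩
      | succ j => exact (hc j).2.1.exists_sylow_top
    choose d hd using hs
    have hx : ∀ i : Fin n, ∃ X ∈ 𝓕, ∃ x ∈ X, IsSylowIn p (c i.castSucc ⊓ X) X ∧
        IsSylowIn p (c i.succ ⊓ X) X ∧ cj x⁻¹ (c i.succ) = c i.castSucc ∧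
        (S : Subgroup G) ⊓ (T : Subgroup G) ≤ X := fun i => (hc i).2.2.2.2
    choose X hX x hx h1 h2 h3 h4 using hx
    refine ⟨n, d, X, x, Sylow.ext (by rw [hd, h0]), Sylow.ext (by rw [hd, hl]), fun i => ?_⟩
    rw [mem_sylowMembers, mem_sylowMembers, hd, hd]
    exact ⟨⟨hX i, h1 i⟩, ⟨hX i, h2 i⟩, hx i, h3 i, le_inf (hc i).2.2.2.1 (h4 i)⟩

theorem sylLink_map_iff {p : ℕ} {M : Subgroup G} {𝓕 : Set (Subgroup G)} (hF : ∀ X ∈ 𝓕, X ≤ M)
    {A S T : Subgroup M} :
    SylLink p M 𝓕 (A.map M.subtype) (S.map M.subtype) (T.map M.subtype) ↔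
      SylLink p ⊤ ((fun X : Subgroup G => X.subgroupOf M) '' 𝓕) A S T := by
  have hinj := M.subtype_injective
  have htop : (⊤ : Subgroup M).map M.subtype = M := by
    rw [← MonoidHom.range_eq_map, range_subtype]
  have hs : ∀ P : Subgroup M, IsSylowIn p (P.map M.subtype) M ↔ IsSylowIn p P ⊤ := fun P => by
    rw [← isSylowIn_map_iff hinj (H := ⊤), htop]
  have hX : ∀ X ∈ 𝓕, (X.subgroupOf M).map M.subtype = X := fun X h => by
    rw [subgroupOf_map_subtype, inf_eq_left.2 (hF X h)]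
  have hs2 : ∀ P : Subgroup M, ∀ X ∈ 𝓕, IsSylowIn p (P.map M.subtype ⊓ X) X ↔
      IsSylowIn p (P ⊓ X.subgroupOf M) (X.subgroupOf M) := fun P X h => by
    rw [← isSylowIn_map_iff hinj (H := X.subgroupOf M), map_inf _ _ _ hinj, hX X h]
  unfold SylLink
  rw [hs, hs, map_le_map_iff_of_injective hinj, map_le_map_iff_of_injective hinj]
  refine and_congr_right fun _ => and_congr_right fun _ => and_congr_right fun _ =>
    and_congr_right fun _ => ?_
  constructor
  · rintro ⟨X, h, x, hx, h1, h2, h3, h4⟩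
    refine ⟨_, ⟨X, h, rfl⟩, ⟨x, hF X h hx⟩, hx, (hs2 _ X h).1 h1, (hs2 _ X h).1 h2, ?_, ?_⟩
    · apply map_injective hinj
      rw [map_cj]; exact h3
    · rw [← map_le_map_iff_of_injective hinj, hX X h]; exact h4
  · rintro ⟨_, ⟨X, h, rfl⟩, x, hx, h1, h2, h3, h4⟩
    refine ⟨X, h, x, hx, (hs2 _ X h).2 h1, (hs2 _ X h).2 h2, ?_, ?_⟩
    · rw [← h3, map_cj]; rfl
    · rw [← hX X h]; exact map_mono h4

theorem controls_iff {p : ℕ} {M : Subgroup G} {𝓕 : Set (Subgroup G)} (hF : ∀ X ∈ 𝓕, X ≤ M) :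
    Cfsg.ControlsSylowIntersections p ((fun X : Subgroup G => X.subgroupOf M) '' 𝓕) ↔
      ∀ S T : Subgroup G, IsSylowIn p S M → IsSylowIn p T M →
      S ⊓ T ≠ ⊥ → SylChain p M 𝓕 (S ⊓ T) S T := by
  have hinj := M.subtype_injective
  have htop : (⊤ : Subgroup M).map M.subtype = M := by
    rw [← MonoidHom.range_eq_map, range_subtype]
  have hs : ∀ P : Subgroup M, IsSylowIn p (P.map M.subtype) M ↔ IsSylowIn p P ⊤ := fun P => by
    rw [← isSylowIn_map_iff hinj (H := ⊤), htop]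
  have hm : ∀ P : Subgroup G, P ≤ M → (P.subgroupOf M).map M.subtype = P := fun P h => by
    rw [subgroupOf_map_subtype, inf_eq_left.2 h]
  rw [controls_iff_top]
  constructor
  · intro h S T hS hT hne
    obtain ⟨S, rfl⟩ := hS.exists_sylow_map
    obtain ⟨T, rfl⟩ := hT.exists_sylow_map
    rw [← map_inf _ _ _ hinj] at hne ⊢
    refine reflTransGen_lift (fun P : Subgroup M => P.map M.subtype)
      (h _ _ ((hs _).1 hS) ((hs _).1 hT) ?_) (fun _ _ h => (sylLink_map_iff hF).2 h)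
    intro e
    exact hne (by rw [e, Subgroup.map_bot])
  · intro h S T hS hT hne
    have h1 := h _ _ ((hs _).2 hS) ((hs _).2 hT) (by
      rw [← map_inf _ _ _ hinj, Ne, map_eq_bot_iff_of_injective _ hinj]; exact hne)
    rw [← map_inf _ _ _ hinj] at h1
    have h2 := reflTransGen_lift (fun P : Subgroup G => P.subgroupOf M)
      (s := SylLink p ⊤ ((fun X : Subgroup G => X.subgroupOf M) '' 𝓕) (S ⊓ T)) h1
      (fun P Q h => (sylLink_map_iff hF).1 (by rw [hm P h.1.le, hm Q h.2.1.le]; exact h))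
    simpa only [subgroupOf, comap_map_eq_self_of_injective hinj] using h2

theorem mem_functorFamily {p : ℕ} {f : Subgroup G → Set (Subgroup G)} {M X : Subgroup G} :
    X ∈ Cfsg.functorFamily p f M ↔
      ∃ P, IsSylowIn p P M ∧ ∃ F ∈ f P, X = M ⊓ normalizer (F : Set G) := by
  constructor
  · rintro ⟨P, F, hF, rfl⟩
    exact ⟨_, isSylowIn_map M P, F, hF, rfl⟩
  · rintro ⟨P, hP, F, hF, rfl⟩
    obtain ⟨P, rfl⟩ := hP.exists_sylow_map
    exact ⟨P, F, hF, rfl⟩

theorem isFunctorRegular_iff {p : ℕ} {f : Subgroup G → Set (Subgroup G)} {M : Subgroup G} :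
    Cfsg.IsFunctorRegular p f M ↔ ∀ S T : Subgroup G, IsSylowIn p S M → IsSylowIn p T M →
      S ⊓ T ≠ ⊥ → SylChain p M (Cfsg.functorFamily p f M) (S ⊓ T) S T := by
  refine controls_iff fun X hX => ?_
  obtain ⟨_, _, _, _, rfl⟩ := mem_functorFamily.1 hX
  exact inf_le_left

theorem cj_mem_functorFamily_top {p : ℕ} {f : Subgroup G → Set (Subgroup G)}
    (hf : Cfsg.IsNormalizerFunctor p f) (g : G) :
    ∀ X ∈ Cfsg.functorFamily p f ⊤, cj g X ∈ Cfsg.functorFamily p f ⊤ := by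
  intro X hX
  obtain ⟨P, hP, F, hF, rfl⟩ := mem_functorFamily.1 hX
  refine mem_functorFamily.2 ⟨cj g P, hP.cj_of_mem (mem_top g), cj g F, ?_, ?_⟩
  · rw [(hf P hP.isPGroup).2 g]; exact ⟨F, hF, rfl⟩
  · rw [cj_inf, cj_top, cj_normalizer]

/-- A link inside `M` for the family induced by `f`: both ends normalize a member of `f T`. -/
theorem SylLink.functor [Finite G] {p : ℕ} [Fact p.Prime] {f : Subgroup G → Set (Subgroup G)}
    (hf : Cfsg.IsNormalizerFunctor p f) {M A S T : Subgroup G}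
    (h : SylLink p M (Cfsg.functorFamily p f M) A S T) :
    ∃ F ∈ f T, S ≤ normalizer (F : Set G) ∧ T ≤ normalizer (F : Set G) ∧
      ∃ x ∈ normalizer (F : Set G), H72.cj x⁻¹ T = S := by
  obtain ⟨h1, h2, h3, h4, X, hX, x, hx, h5, h6, h7, h8⟩ := h
  obtain ⟨P, hP, F, hF, rfl⟩ := mem_functorFamily.1 hX
  have hPN : P ≤ normalizer (F : Set G) := le_normalizer.trans ((hf P hP.isPGroup).1 F hF).2
  have hP' : IsSylowIn p P (M ⊓ normalizer (F : Set G)) := hP.of_le (le_inf hP.le hPN) inf_le_left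
  have key : ∀ R, IsSylowIn p R M → IsSylowIn p (R ⊓ (M ⊓ normalizer (F : Set G)))
      (M ⊓ normalizer (F : Set G)) → R ≤ M ⊓ normalizer (F : Set G) := fun R hR hR' => by
    have : R ⊓ (M ⊓ normalizer (F : Set G)) = R :=
      eq_of_le_of_card_ge inf_le_left (by rw [hR'.card_eq hP', hR.card_eq hP])
    exact inf_eq_left.1 this
  have hT := key T h2 h6
  obtain ⟨y, hy, he⟩ := hP'.exists_cj_eq (h2.of_le hT inf_le_left)
  refine ⟨F, ?_, (key S h1 h5).trans inf_le_right, hT.trans inf_le_right, x, hx.2, h7⟩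
  rw [← he, (hf P hP.isPGroup).2 y]
  exact ⟨F, hF, cj_eq_of_mem_normalizer hy.2⟩

/-- A link in a subgroup `M` containing a Sylow subgroup of `G` is a link in `G`. -/
theorem SylLink.functor_top [Finite G] {p : ℕ} [Fact p.Prime] {f : Subgroup G → Set (Subgroup G)}
    (hf : Cfsg.IsNormalizerFunctor p f) {M A S T : Subgroup G}
    (h : SylLink p M (Cfsg.functorFamily p f M) A S T) (hT : IsSylowIn p T ⊤) :
    SylLink p ⊤ (Cfsg.functorFamily p f ⊤) A S T := by
  obtain ⟨F, hF, h1, h2, x, hx, he⟩ := h.functor hf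
  have hS : IsSylowIn p S ⊤ := he ▸ hT.cj_of_mem (mem_top _)
  refine ⟨hS, hT, h.2.2.1, h.2.2.2.1, normalizer (F : Set G),
    mem_functorFamily.2 ⟨T, hT, F, hF, (top_inf_eq _).symm⟩, x, hx, ?_, ?_, he, h.2.2.1.trans h1⟩
  · rw [inf_eq_left.2 h1]; exact hS.of_le h1 le_top
  · rw [inf_eq_left.2 h2]; exact hT.of_le h2 le_top

theorem SylChain.functor_top [Finite G] {p : ℕ} [Fact p.Prime] {f : Subgroup G → Set (Subgroup G)}
    (hf : Cfsg.IsNormalizerFunctor p f) {M A S T R : Subgroup G} (hR : IsSylowIn p R ⊤)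
    (hRM : R ≤ M) (h : SylChain p M (Cfsg.functorFamily p f M) A S T) :
    SylChain p ⊤ (Cfsg.functorFamily p f ⊤) A S T := by
  refine reflTransGen_lift id h (fun _ T h => h.functor_top hf ?_)
  exact hR.of_card_le h.2.1.isPGroup le_top (h.2.1.card_le hR.isPGroup hRM)

end Cfsg.Agent.H72
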