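import Cfsg.Agent.S4208
import Cfsg.Agent.S0044
import Cfsg.Agent.H44.Cores
import Cfsg.Agent.H23.Basic
import Mathlib.GroupTheory.Perm.Cycle.Type

/-! Odd order groups of automorphisms of small `2`-groups. -/

set_option autoImplicit false

namespace Cfsg.Agent.H72.T3

open Subgroup

/-- Fixed points of an automorphism. -/
def Fx {X : Type*} [Group X] (σ : MulAut X) : Subgroup X :=
  MonoidHom.eqLocus σ.toMonoidHom (MonoidHom.id X)

theorem mem_Fx {X : Type*} [Group X] {σ : MulAut X} {a : X} : a ∈ Fx σ ↔ σ a = a := Iff.rfl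

theorem fix_mod {X : Type*} [Group X] [Finite X] (σ : MulAut X) {r k : ℕ} (hr : r.Prime)
    (hσ : σ ^ r ^ k = 1) (A : Subgroup X) (hA : ∀ a ∈ A, σ a ∈ A) :
    Nat.card A ≡ Nat.card ↥(A ⊓ Fx σ) [MOD r] := by
  classical
  have := Fact.mk hr
  let f : Function.End A := fun a => ⟨σ a, hA a a.2⟩
  have h1 : ∀ (n : ℕ) (a : A), (((f ^ n) a : A) : X) = (σ ^ n) a := by
    intro n
    induction n with
    | zero => intro a; rfl
    | succ n ih => intro a; rw [pow_succ, pow_succ]; exact ih (f a)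
  have hf : f ^ r ^ k = 1 := by
    funext a
    apply Subtype.ext
    rw [h1, hσ]
    rfl
  have := Fintype.ofFinite A
  have h2 := Equiv.Perm.card_fixedPoints_modEq hf
  rw [← Nat.card_eq_fintype_card, ← Nat.card_eq_fintype_card] at h2
  have e : ↥(Function.fixedPoints f) ≃ ↥(A ⊓ Fx σ) :=
    { toFun := fun a => ⟨a.1, a.1.2, congrArg Subtype.val a.2⟩
      invFun := fun a => ⟨⟨a.1, a.2.1⟩, Subtype.ext a.2.2⟩
      left_inv := fun a => rfl
      right_inv := fun a => rfl }
  rwa [Nat.card_congr e] at h2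

theorem fix_all {X : Type*} [Group X] [Finite X] (σ : MulAut X) {r k : ℕ} (hr : r.Prime)
    (hσ : σ ^ r ^ k = 1) (A : Subgroup X) (hA : ∀ a ∈ A, σ a ∈ A)
    (h : ∀ d, d ∣ Nat.card A → Nat.card A ≡ d [MOD r] → d = Nat.card A) :
    ∀ a ∈ A, σ a = a := by
  have h1 := h _ (card_dvd_of_le inf_le_left) (fix_mod σ hr hσ A hA)
  have h2 : A ⊓ Fx σ = A := eq_of_le_of_card_ge inf_le_left h1.ge
  intro a ha
  rw [← h2] at ha
  exact ha.2

theorem aut_dvd {X : Type*} [Group X] [Finite X] {n : ℕ} (h : Nat.card X = 2 ^ n) :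
    ∃ r ≤ n, Nat.card (MulAut X) ∣ 2 ^ (r * (n - r)) * ∏ i ∈ Finset.range r, (2 ^ r - 2 ^ i) := by
  have := Fact.mk Nat.prime_two
  obtain ⟨r, hr, e⟩ := (Nat.dvd_prime_pow Nat.prime_two).1 (h ▸ (frattini X).index_dvd_card)
  exact ⟨r, hr, S4208.result h e⟩

theorem aut_dvd16 {X : Type*} [Group X] [Finite X] (h : Nat.card X = 16) :
    Nat.card (MulAut X) ∣ 1024 * 315 := by
  obtain ⟨r, hr, e⟩ := aut_dvd (n := 4) h
  refine e.trans ?_
  interval_cases r <;> decide

theorem aut_dvd8 {X : Type*} [Group X] [Finite X] (h : Nat.card X ∣ 8) :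
    Nat.card (MulAut X) ∣ 32 * 21 := by
  obtain ⟨n, hn, e⟩ := (Nat.dvd_prime_pow Nat.prime_two).1 (show Nat.card X ∣ 2 ^ 3 from h)
  obtain ⟨r, hr, e⟩ := aut_dvd e
  refine e.trans ?_
  interval_cases n <;> interval_cases r <;> decide

theorem exists_normal_prime {Γ : Type*} [Group Γ] [Finite Γ] {r : ℕ} (hr : r.Prime)
    (h1 : r ∣ Nat.card (fittingSubgroup Γ)) (h2 : ¬ r ^ 2 ∣ Nat.card Γ) :
    ∃ N : Subgroup Γ, N.Normal ∧ Nat.card N = r := by
  have := Fact.mk hr
  have := H44.fittingSubgroup_normal Γ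
  have : Group.IsNilpotent (fittingSubgroup Γ) := H44.fitting_isNilpotent
  obtain ⟨P⟩ : Nonempty (Sylow r (fittingSubgroup Γ)) := inferInstance
  have hn : (P : Subgroup (fittingSubgroup Γ)).Normal := inferInstance
  have := P.characteristic_of_normal hn
  refine ⟨(P : Subgroup (fittingSubgroup Γ)).map (fittingSubgroup Γ).subtype, inferInstance, ?_⟩
  rw [card_map_of_injective (fittingSubgroup Γ).subtype_injective]
  obtain ⟨k, hk⟩ := IsPGroup.iff_card.1 P.isPGroup'
  have h3 : r ∣ Nat.card P := P.dvd_card_of_dvd_card h1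
  have h4 : Nat.card P ∣ Nat.card Γ :=
    (card_subgroup_dvd_card _).trans (card_subgroup_dvd_card _)
  rw [hk] at h3 h4 ⊢
  rcases k with _ | _ | k
  · exact absurd (Nat.le_of_dvd one_pos h3) (not_le.2 hr.one_lt)
  · simp
  · exact absurd ((pow_dvd_pow r (by omega)).trans h4) h2

theorem g4 {U : Type*} [Group U] [Finite U] (hU : Nat.card U = 16) (Γ : Subgroup (MulAut U))
    (ho : Odd (Nat.card Γ)) [Group.IsSolvable Γ] (hfix : ∀ u, (∀ γ ∈ Γ, γ u = u) → u = 1)
    {y : MulAut U} (hy : y ∈ Γ) (hy3 : y ^ 3 = 1) (A B : Subgroup U) (hA : Nat.card A = 4)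
    (hB : Nat.card B = 4) (hAB : ∀ u, ∃ a ∈ A, ∃ b ∈ B, u = a * b)
    (hn : ∀ n : MulAut U, n * y = y * n → (∀ a ∈ A, n a ∈ A) ∧ ∀ b ∈ B, n b ∈ B) :
    ∀ a ∈ Γ, ∀ b ∈ Γ, a * b = b * a := by
  have h315 : Nat.card Γ ∣ 315 :=
    (Nat.Coprime.pow_right 10 (Nat.coprime_two_right.2 ho)).dvd_of_dvd_mul_left
      ((card_subgroup_dvd_card Γ).trans (aut_dvd16 hU))
  have h5 : ¬ 5 ∣ Nat.card (fittingSubgroup Γ) := fun h => by
    obtain ⟨N, hN, hc⟩ := exists_normal_prime (by norm_num) h
      (fun e => absurd (e.trans h315) (by norm_num))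
    have e3 : (MulAut.conj (⟨y, hy⟩ : Γ)) ^ 3 ^ 1 = 1 := by
      rw [← map_pow, show (⟨y, hy⟩ : Γ) ^ 3 ^ 1 = 1 from Subtype.ext hy3, map_one]
    have h1 := fix_all _ Nat.prime_three e3 N (fun a ha => hN.conj_mem a ha _) (fun d hd hm => by
      rw [hc] at hd hm ⊢
      rcases (Nat.dvd_prime (by norm_num)).1 hd with rfl | rfl
      · exact absurd hm (by decide)
      · rfl)
    have h2 : N = ⊥ := by
      rw [eq_bot_iff]
      intro n hnN
      have e1 : (n : MulAut U) * y = y * n := by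
        have := congrArg Subtype.val (h1 n hnN)
        simp only [MulAut.conj_apply, coe_mul, coe_inv] at this
        rw [mul_inv_eq_iff_eq_mul] at this
        exact this.symm
      have e5 : (n : MulAut U) ^ 5 ^ 1 = 1 := by
        have := pow_card_eq_one' (G := N) (x := ⟨n, hnN⟩)
        rw [hc] at this
        exact congrArg (fun z : N => ((z : Γ) : MulAut U)) this
      have k : ∀ d, d ∣ 4 → 4 ≡ d [MOD 5] → d = 4 := fun d hd hm => by
        have := Nat.le_of_dvd (by norm_num) hd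
        interval_cases d <;> first | rfl | exact absurd hm (by decide)
      have a1 := fix_all _ (by norm_num) e5 A (hn _ e1).1 (by rw [hA]; exact k)
      have a2 := fix_all _ (by norm_num) e5 B (hn _ e1).2 (by rw [hB]; exact k)
      rw [mem_bot]
      apply Subtype.ext
      ext u
      obtain ⟨a, ha, b, hb, rfl⟩ := hAB u
      rw [map_mul, a1 a ha, a2 b hb]
      rfl
    rw [h2, card_bot] at hc
    exact absurd hc (by norm_num)
  have h7 : ¬ 7 ∣ Nat.card (fittingSubgroup Γ) := fun h => by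
    obtain ⟨N, hN, hc⟩ := exists_normal_prime (by norm_num) h
      (fun e => absurd (e.trans h315) (by norm_num))
    have : Fact (Nat.Prime 7) := ⟨by norm_num⟩
    have : Nontrivial N := Finite.one_lt_card_iff_nontrivial.1 (by rw [hc]; norm_num)
    obtain ⟨n, hn1⟩ := exists_ne (1 : N)
    have e7 : ((n : Γ) : MulAut U) ^ 7 ^ 1 = 1 := by
      have := pow_card_eq_one' (G := N) (x := n)
      rw [hc] at this
      exact congrArg (fun z : N => ((z : Γ) : MulAut U)) this
    have h1 := fix_mod _ (by norm_num) e7 ⊤ (fun a _ => trivial)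
    rw [top_inf_eq, card_top, hU] at h1
    have h2 : Nat.card (Fx ((n : Γ) : MulAut U)) ∣ 16 := hU ▸ card_subgroup_dvd_card _
    have h3 : Nat.card (Fx ((n : Γ) : MulAut U)) ≠ 16 := fun e => by
      have : Fx ((n : Γ) : MulAut U) = ⊤ := eq_top_of_card_eq _ (by rw [e, hU])
      apply hn1
      apply Subtype.ext
      apply Subtype.ext
      ext u
      exact (this ▸ mem_top u : u ∈ Fx ((n : Γ) : MulAut U))
    have h4 : Nat.card (Fx ((n : Γ) : MulAut U)) = 2 := by
      have := Nat.le_of_dvd (by norm_num) h2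
      generalize Nat.card (Fx ((n : Γ) : MulAut U)) = d at *
      interval_cases d <;> first | rfl | exact absurd h1 (by decide) | exact absurd h2 (by decide) | exact absurd rfl h3
    obtain ⟨u, hu1, hu2⟩ := (Nat.card_eq_two_iff' (1 : Fx ((n : Γ) : MulAut U))).1 h4
    refine hu1 (Subtype.ext (hfix u fun γ hγ => ?_))
    have h5 : γ u ∈ Fx ((n : Γ) : MulAut U) := by
      have h6 : (⟨(⟨γ, hγ⟩ : Γ)⁻¹ * n * ⟨γ, hγ⟩, hN.conj_mem' _ n.2 _⟩ : N) ∈ zpowers n :=
        mem_zpowers_of_prime_card hc hn1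
      obtain ⟨k, hk⟩ := h6
      have h7 : ((n : Γ) : MulAut U) ^ k = γ⁻¹ * n * γ :=
        congrArg (fun z : N => ((z : Γ) : MulAut U)) hk
      have h8 : (((n : Γ) : MulAut U) ^ k) u = u :=
        (MulAction.stabilizer (MulAut U) (u : U)).zpow_mem u.2 k
      rw [h7] at h8
      rw [mem_Fx]
      have := congrArg γ h8
      simpa using this
    exact congrArg Subtype.val (hu2 ⟨γ u, h5⟩ fun e => hu1 (Subtype.ext
      (γ.injective ((congrArg Subtype.val e).trans (map_one γ).symm))))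
  have hF : Nat.card (fittingSubgroup Γ) ∣ 9 := by
    have h1 : Nat.card (fittingSubgroup Γ) ∣ 5 * (7 * 9) := (card_subgroup_dvd_card _).trans h315
    exact ((Nat.Prime.coprime_iff_not_dvd (by norm_num)).2 h7).symm.dvd_of_dvd_mul_left
      (((Nat.Prime.coprime_iff_not_dvd (by norm_num)).2 h5).symm.dvd_of_dvd_mul_left h1)
  have key : ∀ r, r.Prime → (r = 5 ∨ r = 7) → ¬ r ∣ Nat.card Γ := fun r hr h57 h => by
    have := Fact.mk hr
    have := H44.fittingSubgroup_normal Γ
    obtain ⟨g, hg⟩ := exists_prime_orderOf_dvd_card' r h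
    have e : (MulAut.conj g) ^ r ^ 1 = 1 := by
      rw [← map_pow, pow_one, ← hg, pow_orderOf_eq_one, map_one]
    have h1 := fix_all _ hr e (fittingSubgroup Γ)
      (fun a ha => Normal.conj_mem inferInstance a ha g) (fun d hd hm => by
        generalize Nat.card (fittingSubgroup Γ) = m at *
        have a1 := Nat.le_of_dvd (by norm_num) hF
        have a2 := Nat.le_of_dvd (by norm_num) (hd.trans hF)
        rcases h57 with rfl | rfl <;> interval_cases m <;> interval_cases d <;>
          first | rfl | exact absurd hF (by decide) | exact absurd hd (by decide) | exact absurd hm (by decide))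
    have h2 : g ∈ fittingSubgroup Γ := S0044.result fun a ha => by
      have := h1 a ha
      rw [MulAut.conj_apply, mul_inv_eq_iff_eq_mul] at this
      exact this.symm
    have h3 := (Subgroup.orderOf_dvd_natCard _ h2).trans hF
    rw [hg] at h3
    rcases h57 with rfl | rfl <;> exact absurd h3 (by decide)
  have h9 : Nat.card Γ ∣ 3 ^ 2 := by
    have h1 : Nat.card Γ ∣ 5 * (7 * 9) := h315
    exact ((Nat.Prime.coprime_iff_not_dvd (by norm_num)).2
      (key 7 (by norm_num) (Or.inr rfl))).symm.dvd_of_dvd_mul_left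
      (((Nat.Prime.coprime_iff_not_dvd (by norm_num)).2
        (key 5 (by norm_num) (Or.inl rfl))).symm.dvd_of_dvd_mul_left h1)
  have := Fact.mk Nat.prime_three
  have hc : IsMulCommutative Γ := by
    obtain ⟨k, hk, e⟩ := (Nat.dvd_prime_pow Nat.prime_three).1 h9
    interval_cases k
    · have := isCyclic_of_card_dvd_prime (p := 3) (α := Γ) (by rw [e]; norm_num)
      infer_instance
    · have := isCyclic_of_card_dvd_prime (p := 3) (α := Γ) (by rw [e]; norm_num)
      infer_instance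
    · exact IsPGroup.isMulCommutative_of_card_eq_prime_sq e
  intro a ha b hb
  exact congrArg Subtype.val (hc.is_comm.comm (⟨a, ha⟩ : Γ) ⟨b, hb⟩)

end Cfsg.Agent.H72.T3
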