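import Cfsg.Agent.H72.T3A
import Cfsg.Agent.BG.L4_5
import Cfsg.Agent.BG.L4_13

/-! A group of odd order acting on an elementary abelian `2`-group, with a `3`-element whose
commutator space is a four-group (Thompson). -/

set_option autoImplicit false

namespace Cfsg.Agent.H72.T3

open Subgroup Cfsg.Agent.H49

section W

variable {V : Type*} [CommGroup V]

/-- The kernel of `1 + σ + σ²`. -/
def W (σ : MulAut V) : Subgroup V where
  carrier := {v | v * σ v * σ (σ v) = 1}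
  one_mem' := by simp
  mul_mem' := fun {a b} ha hb => by
    simp only [Set.mem_ofPred_eq, map_mul] at *
    calc a * b * (σ a * σ b) * (σ (σ a) * σ (σ b))
        = (a * σ a * σ (σ a)) * (b * σ b * σ (σ b)) := by ac_rfl
      _ = 1 := by rw [ha, hb, one_mul]
  inv_mem' := fun {a} ha => by
    simp only [Set.mem_ofPred_eq, map_inv] at *
    rw [← mul_inv, ← mul_inv, ha, inv_one]

theorem mem_W {σ : MulAut V} {v : V} : v ∈ W σ ↔ v * σ v * σ (σ v) = 1 := Iff.rfl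

theorem W_map {σ τ : MulAut V} {v : V} (h1 : τ (σ v) = σ (τ v)) (h2 : τ (σ (σ v)) = σ (τ (σ v)))
    (hv : v ∈ W σ) : τ v ∈ W σ := by
  rw [mem_W] at *
  rw [← h1, ← h2, ← map_mul, ← map_mul, hv, map_one]

theorem W_conj {σ τ : MulAut V} {v : V} : τ v ∈ W (τ * σ * τ⁻¹) ↔ v ∈ W σ := by
  simp only [mem_W, MulAut.mul_apply, MulAut.inv_apply, MulEquiv.symm_apply_apply]
  rw [← map_mul, ← map_mul, MulEquiv.map_eq_one_iff]

theorem cube {σ : MulAut V} (h3 : σ ^ 3 = 1) (v : V) : σ (σ (σ v)) = v := by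
  have := congrArg (fun f : MulAut V => f v) h3
  simpa [pow_succ] using this

theorem comm_mem {σ : MulAut V} (h3 : σ ^ 3 = 1) (v : V) : σ v * v⁻¹ ∈ W σ := by
  simp only [mem_W, map_mul, map_inv, cube h3]
  calc σ v * v⁻¹ * (σ (σ v) * (σ v)⁻¹) * (v * (σ (σ v))⁻¹)
      = (σ v * (σ v)⁻¹) * (v⁻¹ * v) * (σ (σ v) * (σ (σ v))⁻¹) := by ac_rfl
    _ = 1 := by simp

theorem eq_one_of_fix (hV : ∀ v : V, v * v = 1) {σ : MulAut V} {v : V} (hv : v ∈ W σ)
    (h : σ v = v) : v = 1 := by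
  rw [mem_W, h, h, hV, one_mul] at hv
  exact hv

theorem decomp (hV : ∀ v : V, v * v = 1) {σ : MulAut V} (h3 : σ ^ 3 = 1) (v : V) :
    σ v * σ (σ v) ∈ W σ ∧ v * σ v * σ (σ v) ∈ Fx σ ∧
      v = (σ v * σ (σ v)) * (v * σ v * σ (σ v)) := by
  refine ⟨?_, ?_, ?_⟩
  · simp only [mem_W, map_mul, cube h3]
    calc σ v * σ (σ v) * (σ (σ v) * v) * (v * σ v)
        = (σ v * σ v) * (σ (σ v) * σ (σ v)) * (v * v) := by ac_rfl
      _ = 1 := by simp [hV]
  · simp only [mem_Fx, map_mul, cube h3]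
    ac_rfl
  · calc v = v * (σ v * σ v) * (σ (σ v) * σ (σ v)) := by simp [hV]
      _ = _ := by ac_rfl

theorem map_mem_of_W_le {σ : MulAut V} (h3 : σ ^ 3 = 1) {U : Subgroup V} (h : W σ ≤ U) {v : V}
    (hv : v ∈ U) : σ v ∈ U := by
  have := U.mul_mem (h (comm_mem h3 v)) hv
  simpa using this

theorem card_sup_inf (A B : Subgroup V) :
    Nat.card ↥(A ⊔ B) * Nat.card ↥(A ⊓ B) = Nat.card A * Nat.card B :=
  H23.card_sup_mul_card_inf (by rw [normalizer_eq_top]; exact le_top)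

theorem card_inf_two [Finite V] {A B : Subgroup V} (hA : Nat.card A = 4) (h1 : A ⊓ B ≠ ⊥) (h2 : ¬ A ≤ B) :
    Nat.card ↥(A ⊓ B) = 2 := by
  have h3 : Nat.card ↥(A ⊓ B) ∣ 2 ^ 2 := by
    have := card_dvd_of_le (inf_le_left : A ⊓ B ≤ A)
    rwa [hA] at this
  obtain ⟨k, hk, e⟩ := (Nat.dvd_prime_pow Nat.prime_two).1 h3
  interval_cases k
  · exact absurd (card_eq_one.1 e) h1
  · exact e
  · refine absurd ?_ h2
    have : A ⊓ B = A := eq_of_le_of_card_ge inf_le_left (by rw [hA, e]; norm_num)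
    exact this ▸ inf_le_right

end W

variable {S : Type*} [Group S] {V : Type*} [CommGroup V]

/-- The set-up. -/
structure Su (ρ : S →* MulAut V) (H : Subgroup S) (x : S) : Prop where
  sq : ∀ v : V, v * v = 1
  odd : Odd (Nat.card H)
  mem : x ∈ H
  three : ∃ k, x ^ 3 ^ k = 1
  cube : ρ x ^ 3 = 1
  four : Nat.card (W (ρ x)) = 4

/-- Conjugates of `x` under `H`. -/
def Gd (H : Subgroup S) (x y : S) : Prop := ∃ h ∈ H, y = h * x * h⁻¹

/-- The commutator spaces meet. -/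
def Rl (ρ : S →* MulAut V) (y z : S) : Prop := W (ρ y) ⊓ W (ρ z) ≠ ⊥

theorem W_cj (ρ : S →* MulAut V) (g y : S) {v : V} :
    ρ g v ∈ W (ρ (g * y * g⁻¹)) ↔ v ∈ W (ρ y) := by
  rw [map_mul, map_mul, map_inv, W_conj]

theorem W_cj_eq (ρ : S →* MulAut V) (g y : S) :
    W (ρ (g * y * g⁻¹)) = (W (ρ y)).map (ρ g).toMonoidHom := by
  ext v
  obtain ⟨u, rfl⟩ := (ρ g).surjective v
  rw [W_cj]
  exact ⟨fun h => ⟨u, h, rfl⟩, fun ⟨w, hw, e⟩ => (ρ g).injective e ▸ hw⟩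

theorem Rl.symm {ρ : S →* MulAut V} {y z : S} (h : Rl ρ y z) : Rl ρ z y := by
  unfold Rl at *; rwa [inf_comm]

theorem Rl.cj {ρ : S →* MulAut V} {y z : S} (h : Rl ρ y z) (g : S) :
    Rl ρ (g * y * g⁻¹) (g * z * g⁻¹) := by
  obtain ⟨⟨v, h1, h2⟩, hv⟩ := ne_bot_iff_exists_ne_one.1 h
  refine ne_bot_iff_exists_ne_one.2 ⟨⟨ρ g v, (W_cj ρ g y).2 h1, (W_cj ρ g z).2 h2⟩, fun e => hv ?_⟩
  exact Subtype.ext ((MulEquiv.map_eq_one_iff _).1 (congrArg Subtype.val e))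

namespace Su

variable {ρ : S →* MulAut V} {H : Subgroup S} {x : S}

theorem gd_mem (h : Su ρ H x) {y : S} (hy : Gd H x y) : y ∈ H := by
  obtain ⟨g, hg, rfl⟩ := hy
  exact H.mul_mem (H.mul_mem hg h.mem) (H.inv_mem hg)

theorem gd_cube (h : Su ρ H x) {y : S} (hy : Gd H x y) : ρ y ^ 3 = 1 := by
  obtain ⟨g, -, rfl⟩ := hy
  rw [map_mul, map_mul, map_inv, conj_pow, h.cube, mul_one, mul_inv_cancel]

theorem gd_three (h : Su ρ H x) {y : S} (hy : Gd H x y) : ∃ k, y ^ 3 ^ k = 1 := by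
  obtain ⟨g, -, rfl⟩ := hy
  obtain ⟨k, hk⟩ := h.three
  exact ⟨k, by rw [conj_pow, hk, mul_one, mul_inv_cancel]⟩

theorem gd_four (h : Su ρ H x) {y : S} (hy : Gd H x y) : Nat.card (W (ρ y)) = 4 := by
  obtain ⟨g, -, rfl⟩ := hy
  rw [W_cj_eq, card_map_of_injective (ρ g).injective, h.four]

theorem _root_.Cfsg.Agent.H72.T3.Gd.cj {y g : S} (hy : Gd H x y) (hg : g ∈ H) :
    Gd H x (g * y * g⁻¹) := by
  obtain ⟨k, hk, rfl⟩ := hy
  exact ⟨g * k, H.mul_mem hg hk, by group⟩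

theorem rl_refl (h : Su ρ H x) {y : S} (hy : Gd H x y) : Rl ρ y y := by
  unfold Rl
  rw [inf_idem]
  intro e
  have := h.gd_four hy
  rw [e, card_bot] at this
  exact absurd this (by norm_num)

variable [Finite S] [Finite V] [Group.IsSolvable S]

/-- On a subgroup of order `16` spanned by commutator spaces, the action is abelian. -/
theorem n4 (h : Su ρ H x) {y₁ y₂ y₃ : S} (h1 : Gd H x y₁) (h2 : Gd H x y₂) (h3 : Gd H x y₃)
    (hc : Nat.card ↥(W (ρ y₁) ⊔ W (ρ y₂) ⊔ W (ρ y₃)) = 16) :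
    ∀ v ∈ W (ρ y₂), ρ y₁ v ∈ W (ρ y₂) := by
  classical
  set U := W (ρ y₁) ⊔ W (ρ y₂) ⊔ W (ρ y₃) with hU
  have l1 : W (ρ y₁) ≤ U := le_sup_left.trans le_sup_left
  have l2 : W (ρ y₂) ≤ U := le_sup_right.trans le_sup_left
  have l3 : W (ρ y₃) ≤ U := le_sup_right
  let G : Subgroup S :=
    { carrier := {g | g ∈ H ∧ ∀ v, v ∈ U ↔ ρ g v ∈ U}
      one_mem' := ⟨H.one_mem, fun v => by simp⟩
      mul_mem' := fun {a b} ha hb => ⟨H.mul_mem ha.1 hb.1, fun v => by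
        rw [map_mul, MulAut.mul_apply, ← ha.2, ← hb.2]⟩
      inv_mem' := fun {a} ha => ⟨H.inv_mem ha.1, fun v => by
        rw [ha.2 (ρ a⁻¹ v), ← MulAut.mul_apply, ← map_mul, mul_inv_cancel, map_one,
          MulAut.one_apply]⟩ }
  have hG : ∀ y, Gd H x y → W (ρ y) ≤ U → y ∈ G := fun y hy hl => ⟨h.gd_mem hy, fun v =>
    ⟨map_mem_of_W_le (h.gd_cube hy) hl, fun hv => by
      have := map_mem_of_W_le (h.gd_cube hy) hl (map_mem_of_W_le (h.gd_cube hy) hl hv)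
      rwa [T3.cube (h.gd_cube hy)] at this⟩⟩
  let φ : G →* MulAut U :=
    { toFun := fun g =>
        { toFun := fun u => ⟨ρ g u, (g.2.2 u).1 u.2⟩
          invFun := fun u => ⟨ρ (g⁻¹ : G) u, ((g⁻¹).2.2 u).1 u.2⟩
          left_inv := fun u => Subtype.ext (by simp)
          right_inv := fun u => Subtype.ext (by simp)
          map_mul' := fun a b => Subtype.ext (by simp) }
      map_one' := by ext; simp
      map_mul' := fun a b => by ext; simp }
  have hφ : ∀ (g : G) (u : U), ((φ g u : U) : V) = ρ g u := fun g u => rfl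
  have hGo : Odd (Nat.card G) := h.odd.of_dvd_nat (card_dvd_of_le fun g hg => hg.1)
  have ho : Odd (Nat.card φ.range) := hGo.of_dvd_nat (card_range_dvd φ)
  have : Group.IsSolvable φ.range := Group.isSolvable_of_surjective φ.rangeRestrict_surjective
  let y : G := ⟨y₁, hG y₁ h1 l1⟩
  have c1 := h.gd_cube h1
  have hy3 : φ y ^ 3 = 1 := by
    ext u
    simp only [pow_succ, pow_zero, one_mul, MulAut.mul_apply, hφ, MulAut.one_apply]
    exact T3.cube c1 u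
  have hcF : Nat.card (Fx (φ y)) = 4 ∧ Nat.card (W (φ y)) = 4 := by
    have e1 : W (φ y) = (W (ρ y₁)).subgroupOf U := by
      ext u
      rw [mem_subgroupOf, mem_W, mem_W, Subtype.ext_iff]
      rfl
    have e2 : Nat.card (W (φ y)) = 4 := by
      rw [e1, Nat.card_congr (subgroupOfEquivOfLe l1).toEquiv, h.gd_four h1]
    have sqU : ∀ u : U, u * u = 1 := fun u => Subtype.ext (h.sq u)
    have e3 := card_sup_inf (W (φ y)) (Fx (φ y))
    have e4 : W (φ y) ⊔ Fx (φ y) = ⊤ := by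
      rw [eq_top_iff]
      intro u _
      obtain ⟨a, b, c⟩ := decomp sqU hy3 u
      rw [c]
      exact mul_mem_sup a b
    have e5 : W (φ y) ⊓ Fx (φ y) = ⊥ := by
      rw [eq_bot_iff]
      exact fun u hu => eq_one_of_fix sqU hu.1 hu.2
    rw [e4, e5, card_top, card_bot, hc, e2] at e3
    exact ⟨by omega, e2⟩
  have key := g4 hc φ.range ho (fun u hu => by
      have := Fintype.ofFinite G
      let T : V →* V :=
        { toFun := fun v => ∏ g : G, ρ g v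
          map_one' := by simp
          map_mul' := fun a b => by simp [Finset.prod_mul_distrib] }
      have t1 : ∀ (k : G) (v : V), T (ρ k v) = T v := fun k v => by
        show ∏ g : G, ρ g (ρ k v) = ∏ g : G, ρ g v
        refine Fintype.prod_equiv (Equiv.mulRight k) _ _ fun g => ?_
        simp
      have t2 : ∀ z, Gd H x z → W (ρ z) ≤ U → W (ρ z) ≤ T.ker := fun z hz hl v hv => by
        have := congrArg T (mem_W.1 hv)
        have t0 : ∀ w, T (ρ z w) = T w := t1 ⟨z, hG z hz hl⟩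
        rw [map_mul, map_mul, t0, t0, t0, h.sq, one_mul, map_one] at this
        exact this
      have t3 : U ≤ T.ker := sup_le (sup_le (t2 _ h1 l1) (t2 _ h2 l2)) (t2 _ h3 l3)
      have t4 : T u = u ^ Nat.card G := by
        show ∏ g : G, ρ g u = _
        rw [Finset.prod_congr rfl fun (g : G) _ => show ρ g u = u from
          congrArg Subtype.val (hu _ ⟨g, rfl⟩)]
        simp
      obtain ⟨m, hm⟩ := hGo
      have t5 : T u = 1 := t3 u.2
      rw [t4, hm, pow_succ, pow_mul, pow_two, h.sq, one_pow, one_mul] at t5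
      exact Subtype.ext t5) ⟨y, rfl⟩ hy3 (W (φ y)) (Fx (φ y)) hcF.2 hcF.1
    (fun u => by
      obtain ⟨a, b, c⟩ := decomp (fun u : U => Subtype.ext (h.sq u)) hy3 u
      exact ⟨_, a, _, b, c⟩)
    (fun n hn => by
      have e : ∀ u, n (φ y u) = φ y (n u) := fun u => by
        rw [← MulAut.mul_apply, hn, MulAut.mul_apply]
      refine ⟨fun a ha => W_map (e a) (e _) ha, fun b hb => ?_⟩
      rw [mem_Fx] at *
      rw [← e, hb])
  have k2 := key _ ⟨y, rfl⟩ _ ⟨⟨y₂, hG y₂ h2 l2⟩, rfl⟩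
  have k3 : ∀ u ∈ U, ρ y₁ (ρ y₂ u) = ρ y₂ (ρ y₁ u) := fun u hu =>
    congrArg (fun f : MulAut U => ((f ⟨u, hu⟩ : U) : V)) k2
  intro v hv
  exact W_map (k3 v (l2 hv)) (k3 _ (map_mem_of_W_le (h.gd_cube h2) l2 (l2 hv))) hv

theorem fix_of_not (h : Su ρ H x) {y z : S} (h1 : Gd H x y) (h2 : Gd H x z) (hr : ¬ Rl ρ y z) :
    ∀ v ∈ W (ρ z), ρ y v = v := by
  have hb : W (ρ y) ⊓ W (ρ z) = ⊥ := not_not.1 hr
  have hc := card_sup_inf (W (ρ y)) (W (ρ z))
  rw [hb, card_bot, h.gd_four h1, h.gd_four h2] at hc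
  have k := h.n4 h1 h2 h2 (by rw [sup_assoc, sup_idem]; omega)
  intro v hv
  have : ρ y v * v⁻¹ ∈ W (ρ y) ⊓ W (ρ z) :=
    ⟨comm_mem (h.gd_cube h1) v, (W (ρ z)).mul_mem (k v hv) ((W (ρ z)).inv_mem hv)⟩
  rw [hb, mem_bot, mul_inv_eq_one] at this
  exact this

omit [Finite S] [Group.IsSolvable S] in
theorem card_eight (h : Su ρ H x) {y z : S} (h1 : Gd H x y) (h2 : Gd H x z) (hr : Rl ρ y z)
    (hn : ¬ W (ρ y) ≤ W (ρ z)) : Nat.card ↥(W (ρ y) ⊔ W (ρ z)) = 8 := by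
  have hc := card_sup_inf (W (ρ y)) (W (ρ z))
  rw [card_inf_two (h.gd_four h1) hr hn, h.gd_four h1, h.gd_four h2] at hc
  omega

theorem le_of_meet (h : Su ρ H x) {y z w : S} (h1 : Gd H x y) (h2 : Gd H x z) (h3 : Gd H x w)
    (hr : Rl ρ y z) (hn : ¬ W (ρ y) ≤ W (ρ z)) (hm : W (ρ w) ⊓ (W (ρ y) ⊔ W (ρ z)) ≠ ⊥) :
    W (ρ w) ≤ W (ρ y) ⊔ W (ρ z) := by
  by_contra hl
  have hc := card_sup_inf (W (ρ w)) (W (ρ y) ⊔ W (ρ z))
  rw [card_inf_two (h.gd_four h3) hm hl, h.gd_four h3, h.card_eight h1 h2 hr hn, sup_comm] at hc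
  have k := h.n4 h1 h2 h3 (by omega)
  have c2 := card_inf_two (h.gd_four h1) hr hn
  have k2 := fix_all (ρ y) (k := 1) Nat.prime_three (h.gd_cube h1) (W (ρ y) ⊓ W (ρ z))
    (fun a ha => ⟨map_mem_of_W_le (h.gd_cube h1) le_rfl ha.1, k a ha.2⟩) (fun d hd hm => by
      rw [c2] at hd hm ⊢
      rcases (Nat.dvd_prime Nat.prime_two).1 hd with rfl | rfl
      · exact absurd hm (by decide)
      · rfl)
  exact hr (eq_bot_iff.2 fun a ha => eq_one_of_fix h.sq ha.1 (k2 a ha))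

omit [Finite S] [Group.IsSolvable S] in
theorem W_eq (h : Su ρ H x) {y z : S} (h1 : Gd H x y) (h2 : Gd H x z) (hl : W (ρ y) ≤ W (ρ z)) :
    W (ρ y) = W (ρ z) := eq_of_le_of_card_ge hl (by rw [h.gd_four h1, h.gd_four h2])

theorem rl_trans (h : Su ρ H x) {y z w : S} (h1 : Gd H x y) (h2 : Gd H x z) (h3 : Gd H x w)
    (r1 : Rl ρ y z) (r2 : Rl ρ z w) : Rl ρ y w := by
  by_cases hn : W (ρ y) ≤ W (ρ z)
  · unfold Rl
    rw [h.W_eq h1 h2 hn]
    exact r2
  have hl := h.le_of_meet h1 h2 h3 r1 hn fun e => r2 (eq_bot_iff.2 fun a ha =>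
    e ▸ (⟨ha.2, mem_sup_right ha.1⟩ : a ∈ W (ρ w) ⊓ (W (ρ y) ⊔ W (ρ z))))
  intro hb
  have hc := card_sup_inf (W (ρ y)) (W (ρ w))
  rw [hb, card_bot, h.gd_four h1, h.gd_four h3] at hc
  have := card_le_of_le (sup_le le_sup_left hl : W (ρ y) ⊔ W (ρ w) ≤ W (ρ y) ⊔ W (ρ z))
  rw [h.card_eight h1 h2 r1 hn] at this
  omega

/-- The conclusion, for the conjugate `y` of `x`. -/
def Cc (ρ : S →* MulAut V) (y : S) : Prop :=
  ∃ (r : ℕ) (F C : Subgroup S), r.Prime ∧ r ≠ 2 ∧ Cfsg.IsElementaryAbelian r F ∧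
    Nat.card F = r ^ 3 ∧ C ≤ F ∧ ¬ IsCyclic C ∧ ∀ c ∈ C, ∀ v ∈ W (ρ y), ρ c v = v

theorem cc_of_stab (h : Su ρ H x) {r : ℕ} (hr : r.Prime) (hr2 : r ≠ 2) {F : Subgroup S}
    (hFH : F ≤ H) (hF : Cfsg.IsElementaryAbelian r F) (hc : Nat.card F = r ^ 3)
    (hs : ∀ f ∈ F, Rl ρ (f * x * f⁻¹) x) : Cc ρ x := by
  have hx : Gd H x x := ⟨1, H.one_mem, by group⟩
  let B : Subgroup V := ⨆ z : {z // Gd H x z ∧ Rl ρ z x}, W (ρ z)
  have hxB : W (ρ x) ≤ B := le_iSup_of_le ⟨x, hx, h.rl_refl hx⟩ le_rfl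
  have hB8 : Nat.card B ∣ 8 := by
    by_cases hall : ∀ z, Gd H x z → Rl ρ z x → W (ρ z) ≤ W (ρ x)
    · have : B = W (ρ x) := le_antisymm (iSup_le fun z => hall z z.2.1 z.2.2) hxB
      rw [this, h.four]
      norm_num
    · push Not at hall
      obtain ⟨z, hz, rz, hn⟩ := hall
      have : B ≤ W (ρ z) ⊔ W (ρ x) := iSup_le fun w => h.le_of_meet hz hx w.2.1 rz hn fun e =>
        w.2.2 (eq_bot_iff.2 fun a ha =>
          e ▸ (⟨ha.1, mem_sup_right ha.2⟩ : a ∈ W (ρ w) ⊓ (W (ρ z) ⊔ W (ρ x))))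
      exact h.card_eight hz hx rz hn ▸ card_dvd_of_le this
  have hinv : ∀ f ∈ F, ∀ v ∈ B, ρ f v ∈ B := fun f hf => by
    have : B ≤ B.comap (ρ f).toMonoidHom := iSup_le fun z v hv =>
      (le_iSup_of_le (f := fun z : {z // Gd H x z ∧ Rl ρ z x} => W (ρ z))
        ⟨f * z * f⁻¹, z.2.1.cj (hFH hf), h.rl_trans (z.2.1.cj (hFH hf)) (hx.cj (hFH hf)) hx
          (z.2.2.cj f) (hs f hf)⟩ le_rfl) ((W_cj ρ f z).2 hv)
    exact this
  let φ : F →* MulAut B :=
    { toFun := fun g =>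
        { toFun := fun u => ⟨ρ g u, hinv g g.2 u u.2⟩
          invFun := fun u => ⟨ρ (g⁻¹ : F) u, hinv _ (g⁻¹).2 u u.2⟩
          left_inv := fun u => Subtype.ext (by simp)
          right_inv := fun u => Subtype.ext (by simp)
          map_mul' := fun a b => Subtype.ext (by simp) }
      map_one' := by ext; simp
      map_mul' := fun a b => by ext; simp }
  refine ⟨r, F, φ.ker.map F.subtype, hr, hr2, hF, hc, map_subtype_le _, fun hcy => ?_, ?_⟩
  · have e1 : Nat.card ↥(φ.ker.map F.subtype) ∣ r := by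
      rw [← hcy.exponent_eq_card]
      refine Monoid.exponent_dvd_of_forall_pow_eq_one fun g => Subtype.ext ?_
      exact hF.2 g (map_subtype_le _ g.2)
    rw [card_map_of_injective F.subtype_injective] at e1
    have e2 := φ.ker.card_mul_index
    rw [index_ker, hc] at e2
    have e3 : Nat.card φ.range ∣ 32 * 21 := (card_subgroup_dvd_card _).trans (aut_dvd8 hB8)
    have e4 : r ^ 2 ∣ Nat.card φ.range := by
      obtain ⟨m, hm⟩ := e1
      have : Nat.card φ.ker * Nat.card φ.range = Nat.card φ.ker * (m * r ^ 2) := by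
        rw [e2, ← mul_assoc, ← hm]; ring
      rw [Nat.eq_of_mul_eq_mul_left Nat.card_pos this]
      exact dvd_mul_left _ _
    have e5 : r ^ 2 ∣ 21 := (Nat.Coprime.pow 2 5
      ((Nat.coprime_primes hr Nat.prime_two).2 hr2)).dvd_of_dvd_mul_left (e4.trans e3)
    have e6 : r ≤ 21 := Nat.le_of_dvd (by norm_num) ((dvd_pow_self r two_ne_zero).trans e5)
    have e7 := hr.two_le
    interval_cases r <;> exact absurd e5 (by decide)
  · rintro _ ⟨c, hc, rfl⟩ v hv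
    exact congrArg (fun f : MulAut B => ((f ⟨v, hxB hv⟩ : B) : V)) (MonoidHom.mem_ker.1 hc)

/-- The elements of `H` fixing every class. -/
def St (h : Su ρ H x) : Subgroup S where
  carrier := {g | g ∈ H ∧ ∀ y, Gd H x y → Rl ρ (g * y * g⁻¹) y}
  one_mem' := ⟨H.one_mem, fun y hy => by simpa using h.rl_refl hy⟩
  mul_mem' := fun {a b} ha hb => ⟨H.mul_mem ha.1 hb.1, fun y hy => by
    have e : a * b * y * (a * b)⁻¹ = a * (b * y * b⁻¹) * a⁻¹ := by group
    rw [e]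
    exact h.rl_trans ((hy.cj hb.1).cj ha.1) (hy.cj hb.1) hy (ha.2 _ (hy.cj hb.1)) (hb.2 y hy)⟩
  inv_mem' := fun {a} ha => ⟨H.inv_mem ha.1, fun y hy => by
    have := (ha.2 _ (hy.cj (H.inv_mem ha.1))).symm
    have e : a * (a⁻¹ * y * a⁻¹⁻¹) * a⁻¹ = y := by group
    rwa [e] at this⟩

theorem st_conj (h : Su ρ H x) {g a : S} (hg : g ∈ H) (ha : a ∈ h.St) : g * a * g⁻¹ ∈ h.St :=
  ⟨H.mul_mem (H.mul_mem hg ha.1) (H.inv_mem hg), fun y hy => by
    have := (ha.2 _ (hy.cj (H.inv_mem hg))).cj g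
    have e1 : g * (a * (g⁻¹ * y * g⁻¹⁻¹) * a⁻¹) * g⁻¹ = g * a * g⁻¹ * y * (g * a * g⁻¹)⁻¹ := by
      group
    have e2 : g * (g⁻¹ * y * g⁻¹⁻¹) * g⁻¹ = y := by group
    rwa [e1, e2] at this⟩

theorem gd_st (h : Su ρ H x) {y : S} (hy : Gd H x y) : y ∈ h.St :=
  ⟨h.gd_mem hy, fun z hz => by
    by_cases hr : Rl ρ y z
    · have := hr.cj y
      rw [mul_inv_cancel_right] at this
      exact h.rl_trans (hz.cj (h.gd_mem hy)) hy hz this.symm hr
    · obtain ⟨⟨v, h1, h0⟩, hv⟩ := ne_bot_iff_exists_ne_one.1 (h.rl_refl hz)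
      refine ne_bot_iff_exists_ne_one.2 ⟨⟨v, ?_, h1⟩, fun e => hv (Subtype.ext
        (congrArg (fun w : ↥(W (ρ (y * z * y⁻¹)) ⊓ W (ρ z)) => (w : V)) e))⟩
      have := (W_cj ρ y z).2 h1
      rwa [h.fix_of_not hy hz hr v h1] at this⟩

theorem mem_st_of (h : Su ρ H x) (P : Sylow 3 h.St) {g : S} (hg : g ∈ H)
    (hP : ∀ y ∈ (P : Subgroup h.St).map h.St.subtype, Gd H x y → Rl ρ (g * y * g⁻¹) y) :
    g ∈ h.St := by
  have := Fact.mk Nat.prime_three
  refine ⟨hg, fun y hy => ?_⟩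
  have h3 : IsPGroup 3 (zpowers (⟨y, h.gd_st hy⟩ : h.St)) := by
    obtain ⟨k, hk⟩ := h.gd_three hy
    obtain ⟨j, -, hj⟩ := (Nat.dvd_prime_pow Nat.prime_three).1 (orderOf_dvd_of_pow_eq_one
      (show (⟨y, h.gd_st hy⟩ : h.St) ^ 3 ^ k = 1 from Subtype.ext hk))
    exact IsPGroup.of_card (by rw [Nat.card_zpowers, hj])
  obtain ⟨Q, hQ⟩ := h3.exists_le_sylow
  obtain ⟨l, hl⟩ := MulAction.exists_smul_eq h.St Q P
  have h4 : l * ⟨y, h.gd_st hy⟩ * l⁻¹ ∈ (P : Subgroup h.St) := by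
    rw [← hl, Sylow.coe_subgroup_smul, mem_pointwise_smul_iff_inv_smul_mem]
    simpa [mul_assoc] using hQ (mem_zpowers _)
  have g1 := hy.cj l.2.1
  have r1 := l.2.2 y hy
  have r2 := hP _ ⟨_, h4, rfl⟩ g1
  exact h.rl_trans (hy.cj hg) (g1.cj hg) hy (r1.symm.cj g) (h.rl_trans (g1.cj hg) g1 hy r2 r1)

theorem main (h : Su ρ H x) {p : ℕ} (hp : p.Prime) (hp2 : p ≠ 2) {E : Subgroup S} (hEH : E ≤ H)
    (hE : Cfsg.IsElementaryAbelian p E) (hc : Nat.card E = p ^ 3) : Cc ρ x := by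
  have hx : Gd H x x := ⟨1, H.one_mem, by group⟩
  have f3 := Fact.mk Nat.prime_three
  have hle : h.St ≤ H := fun g hg => hg.1
  have hHn : H ≤ 𝒩(h.St) := fun g hg => mem_normalizer_fintype fun a ha => h.st_conj hg ha
  have fin : ∀ {r : ℕ} {F : Subgroup S}, r.Prime → r ≠ 2 → F ≤ h.St →
      Cfsg.IsElementaryAbelian r F → Nat.card F = r ^ 3 → Cc ρ x := fun hr hr2 hF h1 h2 =>
    h.cc_of_stab hr hr2 (hF.trans hle) h1 h2 fun f hf => (hF hf).2 x hx
  have hn : (h.St.subgroupOf H).Normal := (normal_subgroupOf_iff_le_normalizer hle).2 hHn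
  by_cases h3 : p = 3
  · subst h3
    obtain ⟨T, hT⟩ := ((IsPGroup.of_card hc).comap_subtype (K := H)).exists_le_sylow
    have hTp : IsPGroup 3 ((T : Subgroup H).map H.subtype) := T.isPGroup'.map _
    have hET : E ≤ (T : Subgroup H).map H.subtype := fun e he => ⟨⟨e, hEH he⟩, hT he, rfl⟩
    obtain ⟨⟨A, ⟨hA1, hA2, hA3⟩, hA4⟩, -⟩ := BG.l4_7 (by norm_num) hTp (fun hr => by
      have := hr (E.subgroupOf _) ⟨⟨fun a b => Subtype.ext (Subtype.ext
        (congrArg (fun z : E => (z : S)) (hE.1.is_comm.comm (⟨a.1, a.2⟩ : E) ⟨b.1, b.2⟩)))⟩⟩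
        (fun a ha => Subtype.ext (hE.2 a ha))
      rw [Nat.card_congr (subgroupOfEquivOfLe hET).toEquiv, hc] at this
      norm_num at this)
    refine fin Nat.prime_three (by norm_num) (fun a ha => ?_) hA2 hA3
    have haH : a ∈ H := map_subtype_le _ (hA1 ha)
    obtain ⟨P, hP⟩ := ((hTp.to_inf_left (K := h.St)).comap_subtype (K := h.St)).exists_le_sylow
    have hPT : (P : Subgroup h.St).map h.St.subtype ≤ (T : Subgroup H).map H.subtype := by
      have hPp : IsPGroup 3 ((P : Subgroup h.St).map h.St.subtype) := P.isPGroup'.map _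
      obtain ⟨T', hT'⟩ := (hPp.comap_subtype (K := H)).exists_le_sylow
      obtain ⟨k, hk⟩ := MulAction.exists_smul_eq H T' T
      have e1 : Nat.card ↥((P : Subgroup h.St).map h.St.subtype) ≤
          Nat.card ↥((T : Subgroup H).map H.subtype ⊓ h.St) := by
        rw [← card_cj (k : S)]
        refine card_le_of_le ?_
        intro z hz
        obtain ⟨w, hw, rfl⟩ := mem_cj'.1 hz
        have hw' := map_subtype_le _ hw
        refine ⟨⟨k * ⟨w, hle hw'⟩ * k⁻¹, ?_, rfl⟩, h.st_conj k.2 hw'⟩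
        rw [← hk, SetLike.mem_coe, Sylow.coe_subgroup_smul, mem_pointwise_smul_iff_inv_smul_mem]
        simpa [mul_assoc] using hT' (show (⟨w, hle hw'⟩ : H) ∈ _ from hw)
      have e2 : (T : Subgroup H).map H.subtype ⊓ h.St ≤ (P : Subgroup h.St).map h.St.subtype :=
        fun z hz => ⟨⟨z, hz.2⟩, hP hz, rfl⟩
      exact (eq_of_le_of_card_ge e2 e1).ge.trans inf_le_left
    refine h.mem_st_of P haH fun y hyP hy => ?_
    by_contra hr
    have a3 : a ^ 3 = 1 := hA2.2 a ha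
    have e2 : a⁻¹ = a * a := by
      rw [inv_eq_iff_mul_eq_one, ← mul_assoc, ← pow_three', a3]
    have g1 := hy.cj haH
    have g2 := hy.cj (H.inv_mem haH)
    have n2 : ¬ Rl ρ y (a⁻¹ * y * a⁻¹⁻¹) := fun r => hr (by
      have := r.cj a
      have e : a * (a⁻¹ * y * a⁻¹⁻¹) * a⁻¹ = y := by group
      rwa [e] at this)
    have n1 : ¬ Rl ρ (a * y * a⁻¹) (a⁻¹ * y * a⁻¹⁻¹) := fun r => hr (by
      have := (r.cj a⁻¹).symm
      have e : a⁻¹ * (a * y * a⁻¹) * a⁻¹⁻¹ = y := by group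
      have e' : a⁻¹ * (a⁻¹ * y * a⁻¹⁻¹) * a⁻¹⁻¹ = a * y * a⁻¹ := by
        have : a⁻¹ * a⁻¹ = a := by rw [← mul_inv_rev, ← e2, inv_inv]
        calc _ = (a⁻¹ * a⁻¹) * y * (a⁻¹ * a⁻¹)⁻¹ := by simp only [mul_inv_rev, mul_assoc]
          _ = _ := by rw [this]
      rwa [e, e'] at this)
    have f1 := h.fix_of_not g1 g2 n1
    have f2 := h.fix_of_not hy g2 n2
    have f3 := h.fix_of_not g1 hy hr
    have hcA : y⁻¹ * a * y ∈ A := by
      have := (mem_normalizer_iff.1 (inv_mem (hA4 (hPT hyP))) a).1 ha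
      simpa using this
    have hcomm : a * (y⁻¹ * a * y) = (y⁻¹ * a * y) * a :=
      congrArg Subtype.val (hA2.1.is_comm.comm (⟨a, ha⟩ : A) ⟨_, hcA⟩)
    refine h.rl_refl hy (eq_bot_iff.2 fun v hv => eq_one_of_fix h.sq hv.1 ?_)
    have v2 := (W_cj ρ a⁻¹ y).2 hv.1
    have k1 := f1 _ v2
    have k2 := f2 _ v2
    have k3 := f3 _ hv.1
    have k4 : ρ (y⁻¹ * a * y * a⁻¹) (ρ a⁻¹ v) = ρ a⁻¹ v := by
      have : y⁻¹ * a * y * a⁻¹ = y⁻¹ * (a * y * a⁻¹) := by group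
      rw [this, map_mul, MulAut.mul_apply, k1]
      conv_lhs => rw [← k2]
      rw [← MulAut.mul_apply, ← map_mul, inv_mul_cancel, map_one, MulAut.one_apply]
    have k5 : y⁻¹ * a * y * a⁻¹ * a⁻¹ = a⁻¹ * (y⁻¹ * (a * y * a⁻¹)) := by
      calc _ = a⁻¹ * (a * (y⁻¹ * a * y)) * a⁻¹ * a⁻¹ := by group
        _ = _ := by rw [hcomm]; group
    rw [← MulAut.mul_apply, ← map_mul, k5, map_mul, MulAut.mul_apply, map_mul, MulAut.mul_apply,
      k3] at k4
    have k6 := (ρ a⁻¹).injective k4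
    conv_lhs => rw [← k6]
    rw [← MulAut.mul_apply, ← map_mul, mul_inv_cancel, map_one, MulAut.one_apply]
  · obtain ⟨P⟩ : Nonempty (Sylow 3 h.St) := inferInstance
    set R := (P : Subgroup h.St).map h.St.subtype with hR
    have hRp : IsPGroup 3 R := P.isPGroup'.map _
    by_cases hr : Cfsg.PRankLE 3 2 R
    · refine fin hp hp2 (fun e he => ?_) hE hc
      obtain ⟨l, hl, g, hg, e1⟩ : ∃ l ∈ h.St, ∃ g ∈ 𝒩(R), e = g * l := by
        let σ : MulAut h.St := h.St.normalizerMonoidHom ⟨e, hHn (hEH he)⟩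
        obtain ⟨l, hl⟩ := MulAction.exists_smul_eq h.St P (σ⁻¹ • P)
        refine ⟨l⁻¹, inv_mem l.2, e * l, mem_normalizer_fintype ?_, by group⟩
        rintro _ ⟨w, hw, rfl⟩
        have h1 : l * w * l⁻¹ ∈ ((σ⁻¹ • P : Sylow 3 h.St) : Subgroup h.St) := by
          rw [← hl, Sylow.coe_subgroup_smul, mem_pointwise_smul_iff_inv_smul_mem]
          have : (MulAut.conj l)⁻¹ • (l * w * l⁻¹) = w := by simp [mul_assoc]
          rw [this]
          exact hw
        rw [Sylow.pointwise_smul_def, mem_pointwise_smul_iff_inv_smul_mem, inv_inv] at h1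
        refine ⟨_, h1, ?_⟩
        show e * ((l : S) * w * (l : S)⁻¹) * e⁻¹ = e * l * w * (e * l)⁻¹
        group
      have hgH : g ∈ H := by
        have : g = e * l⁻¹ := by rw [e1]; group
        rw [this]
        exact H.mul_mem (hEH he) (H.inv_mem (hle hl))
      obtain ⟨k, m, hm, hkm⟩ := Nat.exists_eq_pow_mul_and_not_dvd (orderOf_pos g).ne' p hp.one_lt.ne'
      have hgm : g ^ m ∈ h.St := by
        refine h.mem_st_of P (H.pow_mem hgH m) fun y hyP hy => ?_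
        have hc : g ^ m ∈ 𝒞(R) := by
          by_contra hnc
          have := (BG.l4_13 (by norm_num) hRp hr (A := zpowers (g ^ m))
            (zpowers_le.2 (pow_mem hg m)) hp h3 (by
              have d1 : (zpowers (g ^ m) ⊓ 𝒞(R)).relIndex (zpowers (g ^ m)) ∣ p ^ k := by
                refine (relIndex_dvd_card _ _).trans ?_
                rw [Nat.card_zpowers]
                apply orderOf_dvd_of_pow_eq_one
                rw [← pow_mul, mul_comm, ← hkm, pow_orderOf_eq_one]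
              obtain ⟨j, -, hj⟩ := (Nat.dvd_prime_pow hp).1 d1
              rcases j with _ | j
              · exact absurd ((relIndex_eq_one.1 hj) (mem_zpowers _)).2 hnc
              · rw [hj]; exact dvd_pow_self p j.succ_ne_zero)).1
          exact hp2 ((Nat.prime_dvd_prime_iff_eq hp Nat.prime_two).1
            (hp.dvd_of_dvd_pow (show p ∣ 2 ^ 3 from this)))
        rw [← hc y hyP, mul_inv_cancel_right]
        exact h.rl_refl hy
      let π := QuotientGroup.mk' (h.St.subgroupOf H)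
      have q1 : π ⟨e, hEH he⟩ = π ⟨g, hgH⟩ := by
        have : (⟨e, hEH he⟩ : H) = ⟨g, hgH⟩ * ⟨l, hle hl⟩ := Subtype.ext e1
        rw [this, map_mul, show π ⟨l, hle hl⟩ = 1 from (QuotientGroup.eq_one_iff _).2 hl, mul_one]
      have q2 : π ⟨e, hEH he⟩ ^ m = 1 := by
        rw [q1, ← map_pow]
        exact (QuotientGroup.eq_one_iff _).2 hgm
      have q3 : π ⟨e, hEH he⟩ ^ p = 1 := by
        rw [← map_pow, show (⟨e, hEH he⟩ : H) ^ p = 1 from Subtype.ext (hE.2 e he), map_one]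
      have q4 := pow_gcd_eq_one.2 ⟨q3, q2⟩
      rw [((Nat.Prime.coprime_iff_not_dvd hp).2 hm).gcd_eq_one, pow_one] at q4
      exact (QuotientGroup.eq_one_iff (N := h.St.subgroupOf H) ⟨e, hEH he⟩).1 q4
    · obtain ⟨⟨A, ⟨hA1, hA2, hA3⟩, -⟩, -⟩ := BG.l4_7 (by norm_num) hRp hr
      exact fin Nat.prime_three (by norm_num) (hA1.trans (map_subtype_le _)) hA2 hA3

end Su

end Cfsg.Agent.H72.T3
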