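import Mathlib.GroupTheory.Transfer
import Cfsg.Agent.H70.Core
import Cfsg.Agent.H72.Conj

/-!
Frobenius–Wielandt triples with abelian factor, via transfer.
-/

set_option autoImplicit false

namespace Cfsg.Agent.H72

open Subgroup MulAction
open scoped commutatorElement

variable {G : Type*} [Group G]

theorem exists_hom_of_wtriple [Finite G] {H M : Subgroup G} {A : Type*} [CommGroup A]
    (φ : M →* A) (hφ : ∀ x : M, (x : G) ∈ H → φ x = 1)
    (hW : ∀ g, g ∉ M → M ⊓ cj g M ≤ H) : ∃ ψ : G →* A, ∀ x : M, ψ x = φ x := by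
  classical
  refine ⟨MonoidHom.transfer φ, fun x => ?_⟩
  have := Fintype.ofFinite (Quotient (orbitRel (zpowers (x : G)) (G ⧸ M)))
  rw [MonoidHom.transfer_eq_prod_quotient_orbitRel_zpowers_quot]
  have hfix : ∀ y ∈ M, y • ((1 : G) : G ⧸ M) = ((1 : G) : G ⧸ M) := fun y hy => by
    change ((y * 1 : G) : G ⧸ M) = _
    rw [QuotientGroup.eq]; simpa using hy
  have hout : ∀ q : Quotient (orbitRel (zpowers (x : G)) (G ⧸ M)),
      q = Quotient.mk _ ((1 : G) : G ⧸ M) ↔ q.out = ((1 : G) : G ⧸ M) := fun q => by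
    constructor
    · intro h
      have h1 : (orbitRel (zpowers (x : G)) (G ⧸ M)).r q.out ((1 : G) : G ⧸ M) := by
        apply Quotient.exact; rw [Quotient.out_eq, h]
      obtain ⟨y, hy⟩ := h1
      rw [← hy]
      exact hfix y (zpowers_le.2 x.2 y.2)
    · intro h; rw [← h, Quotient.out_eq]
  have hmem : ∀ r : G ⧸ M, r = ((1 : G) : G ⧸ M) ↔ r.out ∈ M := fun r => by
    conv_lhs => rw [← r.out_eq', QuotientGroup.eq]
    simp
  rw [Fintype.prod_eq_single (Quotient.mk _ ((1 : G) : G ⧸ M))]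
  · set q : Quotient (orbitRel (zpowers (x : G)) (G ⧸ M)) := Quotient.mk _ ((1 : G) : G ⧸ M)
    have h1 : q.out = ((1 : G) : G ⧸ M) := (hout q).1 rfl
    have h2 : q.out.out ∈ M := (hmem _).1 h1
    have h3 : Function.minimalPeriod ((x : G) • ·) q.out = 1 := by
      rw [Function.minimalPeriod_eq_one_iff_isFixedPt, h1]; exact hfix x x.2
    have : (⟨q.out.out⁻¹ * (x : G) ^ Function.minimalPeriod ((x : G) • ·) q.out * q.out.out,
        QuotientGroup.out_conj_pow_minimalPeriod_mem M x q.out⟩ : M) =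
        (⟨_, h2⟩ : M)⁻¹ * x * ⟨_, h2⟩ := by
      ext; simp [h3]
    rw [this, map_mul, map_mul, map_inv, mul_right_comm, inv_mul_cancel, one_mul]
  · intro q hq
    apply hφ
    have h2 : q.out.out ∉ M := fun e => hq ((hout q).2 ((hmem _).2 e))
    refine hW (q.out.out)⁻¹ (fun e => h2 (by simpa using e))
      ⟨QuotientGroup.out_conj_pow_minimalPeriod_mem M x q.out, mem_cj.2 ?_⟩
    simpa [mul_assoc] using M.pow_mem x.2 _

/-- A normal subgroup `N` with `N ⊓ M = H` and abelian quotient, for a Wielandt triple with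
`H` maximal and normal in `M`. -/
theorem exists_normal_of_wtriple [Finite G] {H M : Subgroup G} (hHM : H ≤ M)
    [hn : (H.subgroupOf M).Normal] (hmax : IsCoatom (H.subgroupOf M))
    (hW : ∀ g, g ∉ M → M ⊓ cj g M ≤ H) :
    ∃ N : Subgroup G, N.Normal ∧ N ⊓ M = H ∧ ∀ a b : G, ⁅a, b⁆ ∈ N := by
  have hcyc : IsCyclic (M ⧸ H.subgroupOf M) := by
    obtain ⟨x, hx⟩ : ∃ x : M, x ∉ H.subgroupOf M := by
      by_contra h
      push Not at h
      exact hmax.1 (eq_top_iff.2 fun x _ => h x)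
    refine ⟨⟨(x : M ⧸ H.subgroupOf M), fun y => ?_⟩⟩
    have h1 : (zpowers (x : M ⧸ H.subgroupOf M)).comap (QuotientGroup.mk' _) = ⊤ := by
      refine hmax.2 _ (lt_of_le_of_ne (fun z hz => ?_) fun e => hx ?_)
      · rw [mem_comap, QuotientGroup.mk'_apply, (QuotientGroup.eq_one_iff z).2 hz]
        exact one_mem _
      · rw [e]; exact mem_zpowers _
    obtain ⟨y, rfl⟩ := QuotientGroup.mk_surjective y
    exact (h1.ge (mem_top y) : _)
  let _ : CommGroup (M ⧸ H.subgroupOf M) := IsCyclic.commGroup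
  obtain ⟨ψ, hψ⟩ := exists_hom_of_wtriple (H := H) (QuotientGroup.mk' (H.subgroupOf M))
    (fun x hx => (QuotientGroup.eq_one_iff x).2 hx) hW
  refine ⟨ψ.ker, inferInstance, ?_, fun a b => ?_⟩
  · ext x
    constructor
    · rintro ⟨h1, h2⟩
      have := (hψ ⟨x, h2⟩).symm.trans h1
      exact (QuotientGroup.eq_one_iff (⟨x, h2⟩ : M)).1 this
    · intro hx
      exact ⟨(hψ ⟨x, hHM hx⟩).trans ((QuotientGroup.eq_one_iff (⟨x, hHM hx⟩ : M)).2 hx), hHM hx⟩
  · rw [MonoidHom.mem_ker, map_commutatorElement, commutatorElement_eq_one_iff_commute]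
    exact mul_comm _ _

theorem eq_or_eq_of_isCoatom_subgroupOf {H M K : Subgroup G} (hmax : IsCoatom (H.subgroupOf M))
    (h1 : H ≤ K) (h2 : K ≤ M) : K = H ∨ K = M := by
  rcases (comap_mono h1 : H.subgroupOf M ≤ K.subgroupOf M).eq_or_lt with e | e
  · left
    refine le_antisymm (fun x hx => ?_) h1
    exact (e.ge (show (⟨x, h2 hx⟩ : M) ∈ K.subgroupOf M from hx) : _)
  · right
    exact le_antisymm h2 (subgroupOf_eq_top.1 (hmax.2 _ e))

end Cfsg.Agent.H72
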